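import Mathlib
import Cfsg.Agent.Lib.Hom.Defs

/-! Homogeneous groups: the first homocyclic subgroup. -/

set_option autoImplicit false

namespace CfsgLib.Hom
open Subgroup CfsgLib.Tech
open _root_.Classical

variable {G : Type*} [Group G] [Finite G]

/-- the commutator of `y` with `e` -/
def al1_k (e y : G) : G := y * e * y⁻¹ * e⁻¹

/-- the properties of a Sylow 2-subgroup `R` of `N(E) ⊓ C(H)` that are used -/
structure al1_C (E H R : Subgroup G) (e : G) : Prop where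
  le : E ≤ R
  cen : ∀ y ∈ R, ∀ h ∈ H, y * h = h * y
  mem : ∀ y ∈ R, al1_k e y ∈ H
  act : ∀ y ∈ R, ∀ x ∈ E, x ∉ H → y * x * y⁻¹ = x * al1_k e y
  ker : ∀ y ∈ R, al1_k e y = 1 → y ∈ E
  onto : ∀ h ∈ H, ∃ y ∈ R, al1_k e y = h
  fr : ∀ W : Subgroup G, Hy W E → ∀ c ∈ W, c ∈ H → ∃ g ∈ normalizer (R : Set G),
    Tv (fun x => g * x * g⁻¹) E W c ∧ g * g ∈ E

omit [Finite G] in
theorem al1_el_sup {K : Subgroup G} (hK : El K) {x : G} (hx : x * x = 1)
    (hc : ∀ k ∈ K, k * x = x * k) : El (K ⊔ zpowers x) := by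
  intro y hy
  rw [mem_sup_zpowers (fun w hw => by rw [← hc w hw, mul_inv_cancel_right]; exact hw)
    (by rw [hx]; exact K.one_mem)] at hy
  rcases hy with hy | hy
  · exact hK y hy
  · obtain ⟨k, hk, rfl⟩ : ∃ k ∈ K, y = x * k := ⟨_, hy, by group⟩
    calc x * k * (x * k) = x * (k * x) * k := by group
      _ = (x * x) * (k * k) := by rw [hc k hk]; group
      _ = 1 := by rw [hx, hK k hk, mul_one]

omit [Finite G] in
theorem al1_tv_mem {E H W : Subgroup G} (hH : H ≤ E) {c g : G} (hc : c ∈ H)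
    (h : Tv (fun x => g * x * g⁻¹) E W c) {x : G} (hx : x ∈ H) : g * x * g⁻¹ ∈ H := by
  by_cases hw : x ∈ W
  · have : g * x * g⁻¹ = x := h.fix x hw
    rw [this]; exact hx
  · have : g * x * g⁻¹ = x * c := h.mv x (hH hx) hw
    rw [this]; exact H.mul_mem hx hc

omit [Finite G] in
theorem al1_tv_sq {E W : Subgroup G} (hE : El E) (hW : Hy W E) {c g : G} (hc : c ∈ W)
    (h : Tv (fun x => g * x * g⁻¹) E W c) {x : G} (hx : x ∈ E) : g * g * x = x * (g * g) := by
  have h1 : ∀ x ∈ W, g * x * g⁻¹ = x := h.fix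
  have h2 : ∀ x ∈ E, x ∉ W → g * x * g⁻¹ = x * c := h.mv
  have : g * (g * x * g⁻¹) * g⁻¹ = x := by
    by_cases hw : x ∈ W
    · rw [h1 x hw, h1 x hw]
    · rw [h2 x hx hw, h2 _ (E.mul_mem hx (hW.le hc)) (hW.mul_notMem hw hc), mul_assoc,
        hE c (hW.le hc), mul_one]
  calc g * g * x = g * (g * x * g⁻¹) * g⁻¹ * (g * g) := by group
    _ = x * (g * g) := by rw [this]

theorem al1_exists {E H : Subgroup G} (hE : El E) (hT : AllTv E) (hS : Sy E)
    (hH : Hy H E) {e : G} (he : e ∈ E) (he' : e ∉ H) : ∃ R, al1_C E H R e := by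
  haveI : Fact (Nat.Prime 2) := ⟨Nat.prime_two⟩
  set X : Subgroup G := normalizer (E : Set G) ⊓ centralizer (H : Set G) with hX
  have hc : ∀ y ∈ X, ∀ h ∈ H, y * h = h * y := fun y hy h hh =>
    (mem_centralizer_iff.1 hy.2 h hh).symm
  have hm : ∀ y ∈ X, al1_k e y ∈ H := fun y hy => by
    refine hH.mul _ (conj_mem_of_mem_normalizer hy.1 he) _ (E.inv_mem he) (fun h => he' ?_)
      (fun h => he' (by simpa using H.inv_mem h))
    have h1 := hc y hy _ h
    have : e = y * e * y⁻¹ := by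
      calc e = y⁻¹ * (y * e * y⁻¹ * y) := by group
        _ = y * e * y⁻¹ := by rw [← h1]; group
    rw [this]; exact h
  have ha : ∀ y ∈ X, ∀ x ∈ E, x ∉ H → y * x * y⁻¹ = x * al1_k e y := fun y hy x hx hx' => by
    have h1 := hH.inv_mul he hx he' hx'
    have h2 := hc y hy _ h1
    have h3 := hE.comm (hH.le (hm y hy)) hx
    calc y * x * y⁻¹ = y * e * y⁻¹ * (y * (e⁻¹ * x)) * y⁻¹ := by group
      _ = al1_k e y * x := by rw [h2, al1_k]; group
      _ = _ := h3
  have hmul : ∀ y ∈ X, ∀ y' ∈ X, al1_k e (y * y') = al1_k e y * al1_k e y' := fun y hy y' hy' => by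
    have h1 := ha _ (X.mul_mem hy hy') e he he'
    have h2 : y * y' * e * (y * y')⁻¹ = e * (al1_k e y * al1_k e y') := by
      calc y * y' * e * (y * y')⁻¹ = y * (y' * e * y'⁻¹) * y⁻¹ := by group
        _ = y * e * y⁻¹ * (y * al1_k e y' * y⁻¹) := by rw [ha y' hy' e he he']; group
        _ = _ := by rw [hc y hy _ (hm y' hy'), ha y hy e he he']; group
    exact mul_left_cancel (h1.symm.trans h2)
  have hEX : E ≤ X := fun x hx => ⟨le_normalizer hx, mem_centralizer_iff.2 fun h hh =>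
    hE.comm (hH.le hh) hx⟩
  obtain ⟨R, hR, hER⟩ := exists_isSylowIn_ge hE.isPGroup hEX
  have hsame : ∀ y ∈ X, ∀ y' ∈ X, al1_k e y = al1_k e y' → ∀ x ∈ E, y * x * y⁻¹ = y' * x * y'⁻¹ :=
    fun y hy y' hy' h x hx => by
      by_cases hx' : x ∈ H
      · rw [hc y hy x hx', hc y' hy' x hx']; group
      · rw [ha y hy x hx hx', ha y' hy' x hx hx', h]
  have honto : ∀ h ∈ H, ∃ y ∈ R, al1_k e y = h := fun h hh => by
    obtain ⟨g, hg⟩ := hT H hH h hh
    have hgX : g ∈ X := ⟨hg.mem_normalizer hH hh, mem_centralizer_iff.2 fun x hx => by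
      have : g * x * g⁻¹ = x := hg.fix x hx
      rw [← mul_inv_eq_iff_eq_mul.1 this]⟩
    obtain ⟨t, ht, e1⟩ := syl_image hR (al1_k e) hmul
      (fun x hx y hy => hE.comm (hH.le (hm x hx)) (hH.le (hm y hy)))
      (fun x hx => ⟨1, by rw [pow_one, pow_two]; exact hE _ (hH.le (hm x hx))⟩) hgX
    refine ⟨t, ht, e1.trans ?_⟩
    have h1 : g * e * g⁻¹ = e * h := hg.mv e he he'
    exact mul_left_cancel ((ha g hgX e he he').symm.trans h1)
  refine ⟨R, hER, fun y hy => hc y (hR.le hy), fun y hy => hm y (hR.le hy),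
    fun y hy => ha y (hR.le hy), fun y hy h => ?_, honto, fun W hW c hcW hcH => ?_⟩
  · obtain ⟨k, hk⟩ := isPGroup_iff_mem.1 hR.pgroup y hy
    refine hS y k hk fun x hx => ?_
    have := hsame y (hR.le hy) 1 X.one_mem (by rw [h, al1_k]; group) x hx
    rw [mul_inv_eq_iff_eq_mul.1 this]; group
  · obtain ⟨g₀, hg₀⟩ := hT W hW c hcW
    have hn1 : g₀ ∈ normalizer (E : Set G) := hg₀.mem_normalizer hW hcW
    have hn2 : g₀ ∈ normalizer (H : Set G) :=
      mem_normalizer_of_forall fun x hx => al1_tv_mem hH.le hcH hg₀ hx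
    have hn3 : g₀ ∈ normalizer (X : Set G) := mem_normalizer_of_forall fun y hy =>
      ⟨Subgroup.mul_mem _ (Subgroup.mul_mem _ hn1 hy.1) (Subgroup.inv_mem _ hn1), mem_centralizer_iff.2 fun h hh => by
        have h1 := hc y hy _ (conj_mem_of_mem_normalizer' hn2 hh)
        calc h * (g₀ * y * g₀⁻¹) = g₀ * (g₀⁻¹ * h * g₀ * y) * g₀⁻¹ := by group
          _ = _ := by rw [← h1]; group⟩
    obtain ⟨n, hn, hn4⟩ := hR.frattini' hn3
    obtain ⟨r, hr, e1⟩ := honto _ (hm _ (X.inv_mem hn))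
    have hact : ∀ x ∈ E, g₀ * n * r * x * (g₀ * n * r)⁻¹ = g₀ * x * g₀⁻¹ := fun x hx => by
      have h1 := hsame r (hR.le hr) _ (X.inv_mem hn) e1 x hx
      calc g₀ * n * r * x * (g₀ * n * r)⁻¹ = g₀ * n * (r * x * r⁻¹) * (g₀ * n)⁻¹ := by group
        _ = _ := by rw [h1]; group
    have hg₁ : Tv (fun x => g₀ * n * r * x * (g₀ * n * r)⁻¹) E W c :=
      ⟨fun x hx => (hact x (hW.le hx)).trans (hg₀.fix x hx),
        fun x hx hx' => (hact x hx).trans (hg₀.mv x hx hx')⟩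
    have hn5 : g₀ * n * r ∈ normalizer (R : Set G) := mul_mem hn4 (le_normalizer hr)
    generalize g₀ * n * r = g₁ at hg₁ hn5
    obtain ⟨k, j, hk, e2⟩ := exists_ppart 2 g₁
    obtain ⟨m, rfl⟩ : Odd k := Nat.odd_iff.2 (by omega)
    have hact2 : ∀ x ∈ E, g₁ ^ (2 * m + 1) * x * (g₁ ^ (2 * m + 1))⁻¹ = g₁ * x * g₁⁻¹ :=
      fun x hx => by
        have h1 : Commute (g₁ ^ (2 * m)) x := by
          rw [pow_mul, pow_two]
          exact Commute.pow_left (al1_tv_sq hE hW hcW hg₁ hx) m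
        calc g₁ ^ (2 * m + 1) * x * (g₁ ^ (2 * m + 1))⁻¹
            = g₁ * (g₁ ^ (2 * m) * x) * (g₁ ^ (2 * m))⁻¹ * g₁⁻¹ := by rw [pow_succ']; group
          _ = _ := by rw [h1.eq]; group
    have hg₂ : Tv (fun x => g₁ ^ (2 * m + 1) * x * (g₁ ^ (2 * m + 1))⁻¹) E W c :=
      ⟨fun x hx => (hact2 x (hW.le hx)).trans (hg₁.fix x hx),
        fun x hx hx' => (hact2 x hx).trans (hg₁.mv x hx hx')⟩
    refine ⟨_, pow_mem hn5 _, hg₂, hS _ j ?_ fun x hx => al1_tv_sq hE hW hcW hg₂ hx⟩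
    rw [(Commute.refl _).mul_pow, e2, one_mul]

section
omit [Finite G]
variable {E H R : Subgroup G} {e : G}

theorem al1_C.mul (h : al1_C E H R e) (he : e ∈ E) (he' : e ∉ H) {y y' : G} (hy : y ∈ R)
    (hy' : y' ∈ R) : al1_k e (y * y') = al1_k e y * al1_k e y' := by
  have h1 := h.act _ (R.mul_mem hy hy') e he he'
  have h2 : y * y' * e * (y * y')⁻¹ = e * (al1_k e y * al1_k e y') := by
    calc y * y' * e * (y * y')⁻¹ = y * (y' * e * y'⁻¹) * y⁻¹ := by group
      _ = y * e * y⁻¹ * (y * al1_k e y' * y⁻¹) := by rw [h.act y' hy' e he he']; group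
      _ = _ := by rw [h.cen y hy _ (h.mem y' hy'), h.act y hy e he he']; group
  exact mul_left_cancel (h1.symm.trans h2)

theorem al1_C.sq (h : al1_C E H R e) (hE : El E) (hH : Hy H E) (he : e ∈ E) (he' : e ∉ H) {y : G}
    (hy : y ∈ R) : y * y ∈ H := by
  have h1 : y * y ∈ E := h.ker _ (R.mul_mem hy hy)
    (by rw [h.mul he he' hy hy]; exact hE _ (hH.le (h.mem y hy)))
  by_contra h2
  have h3 := h.act y hy _ h1 h2
  have h4 : al1_k e y = 1 := by
    have : y * y * 1 = y * y * al1_k e y := by rw [← h3]; group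
    exact (mul_left_cancel this).symm
  exact h2 (by rw [hE y (h.ker y hy h4)]; exact H.one_mem)

/-- conjugation of `y ∈ R` by `u ∈ E` -/
theorem al1_C.conj (h : al1_C E H R e) {y u : G} (hy : y ∈ R) (hu : u ∈ E) :
    u * y * u⁻¹ = y ∨ u * y * u⁻¹ = al1_k e y * y := by
  by_cases hu' : u ∈ H
  · left; rw [← h.cen y hy u hu']; group
  · right
    have h1 := h.act y hy _ (E.inv_mem hu) (fun h' => hu' (by simpa using H.inv_mem h'))
    calc u * y * u⁻¹ = u * (y * u⁻¹ * y⁻¹) * y := by group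
      _ = _ := by rw [h1]; group

theorem al1_C.sq_mul (h : al1_C E H R e) (hE : El E) {y u : G} (hy : y ∈ R) (hu : u ∈ E)
    (hu' : u ∉ H) : u * y * (u * y) = al1_k e y * (y * y) := by
  calc u * y * (u * y) = u * (y * u * y⁻¹) * (y * y) := by group
    _ = (u * u) * (al1_k e y * (y * y)) := by rw [h.act y hy u hu hu']; group
    _ = _ := by rw [hE u hu, one_mul]

end

theorem al1_K {E H R : Subgroup G} {e : G} (h : al1_C E H R e) (hE : El E) (hH : Hy H E)
    (he : e ∈ E) (he' : e ∉ H) {p : G} (hp : p ∈ R) (h1 : al1_k e p ≠ 1) :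
    p * p = 1 ∨ p * p = al1_k e p := by
  by_contra hc
  rw [not_or] at hc
  have hhH := h.mem p hp
  have hkH := h.sq hE hH he he' hp
  obtain ⟨W, hW, hhW, hkW⟩ := hE.exists_hy' (hH.le hhH) (hH.le hkH) hc.1 hc.2
  obtain ⟨g, hgR, hg, hg2⟩ := h.fr W hW _ hhW hhH
  obtain ⟨y, hy, e1⟩ := h.onto _ hkH
  have hy' : g * y * g⁻¹ ∈ R := conj_mem_of_mem_normalizer hgR hy
  have hgE : g ∈ normalizer (E : Set G) := hg.mem_normalizer hW hhW
  have h2 : g⁻¹ * e * g ∉ H := fun h' => he' (by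
    have := al1_tv_mem hH.le hhH hg h'
    convert this using 1; group)
  have h3 : al1_k e (g * y * g⁻¹) = p * p * al1_k e p := by
    have a1 := h.act _ hy' e he he'
    have a2 := h.act y hy _ (conj_mem_of_mem_normalizer' hgE he) h2
    have a3 : g * (p * p) * g⁻¹ = p * p * al1_k e p := hg.mv _ (hH.le hkH) hkW
    have a4 : g * y * g⁻¹ * e * (g * y * g⁻¹)⁻¹ = e * (p * p * al1_k e p) := by
      calc g * y * g⁻¹ * e * (g * y * g⁻¹)⁻¹ = g * (y * (g⁻¹ * e * g) * y⁻¹) * g⁻¹ := by group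
        _ = e * (g * (p * p) * g⁻¹) := by rw [a2, e1]; group
        _ = _ := by rw [a3]
    exact mul_left_cancel (a1.symm.trans a4)
  obtain ⟨y', e2⟩ : ∃ y', y' = g * y * g⁻¹ := ⟨_, rfl⟩
  rw [← e2] at hy' h3
  have hp₀ : y * y' ∈ R := R.mul_mem hy hy'
  have h4 : al1_k e (y * y') = al1_k e p := by
    rw [h.mul he he' hy hy', e1, h3, ← mul_assoc, hE _ (hH.le hkH), one_mul]
  have h5 : p * (y * y')⁻¹ ∈ E := by
    refine h.ker _ (R.mul_mem hp (R.inv_mem hp₀)) ?_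
    rw [h.mul he he' hp (R.inv_mem hp₀), ← h4, ← h.mul he he' hp₀ (R.inv_mem hp₀), al1_k]
    group
  have hsH := h.sq hE hH he he' hp₀
  have h6 : y * y' * (y * y') ∉ W := fun hw => hkW (by
    by_cases hu : p * (y * y')⁻¹ ∈ H
    · have a1 := h.cen _ hp₀ _ hu
      have : p * p = y * y' * (y * y') := by
        calc p * p = p * (y * y')⁻¹ * (y * y' * (p * (y * y')⁻¹)) * (y * y') := by group
          _ = p * (y * y')⁻¹ * (p * (y * y')⁻¹) * (y * y' * (y * y')) := by rw [a1]; group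
          _ = _ := by rw [hE _ h5, one_mul]
      rw [this]; exact hw
    · have a1 := h.sq_mul hE hp₀ h5 hu
      rw [inv_mul_cancel_right, h4] at a1
      rw [a1]; exact W.mul_mem hhW hw)
  have h7 : g * (y * y' * (y * y')) * g⁻¹ = y * y' * (y * y') * al1_k e p :=
    hg.mv _ (hH.le hsH) h6
  obtain ⟨h', hh', e3⟩ : ∃ h' ∈ H, g * g * y * (g * g)⁻¹ = h' * y := by
    rcases h.conj hy hg2 with a | a
    · exact ⟨1, H.one_mem, by rw [a, one_mul]⟩
    · exact ⟨_, h.mem y hy, a⟩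
  have h8 : g * (y * y') * g⁻¹ = y' * (h' * y) := by
    rw [← e3]; conv_rhs => rw [e2]
    conv_lhs => rw [e2]
    group
  have h9 : g * (y * y' * (y * y')) * g⁻¹ = y * y' * (y * y') := by
    have a1 := h.cen _ hp₀ _ hh'
    have a2 := h.cen _ (R.inv_mem hy) _ hsH
    calc g * (y * y' * (y * y')) * g⁻¹ = g * (y * y') * g⁻¹ * (g * (y * y') * g⁻¹) := by group
      _ = y' * h' * (y * y' * h') * y := by rw [h8]; group
      _ = y' * (h' * h') * (y * y') * y := by rw [a1]; group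
      _ = y⁻¹ * (y * y' * (y * y')) * y := by rw [hE _ (hH.le hh')]; group
      _ = _ := by rw [a2]; group
  exact h1 (mul_left_cancel (a := y * y' * (y * y')) (by rw [← h7, h9, mul_one]))

theorem al1_two {E H R : Subgroup G} {e : G} (h : al1_C E H R e) (hE : Mx E) (hH : Hy H E)
    {u v : G} (hu : u ∈ R) (hv : v ∈ R) (hu' : u ∉ H) (hv' : v ∉ H) (hu2 : u * u = 1)
    (hv2 : v * v = 1) : u * v ∈ H ∨ u * v * (u * v) ≠ 1 := by
  by_contra hc
  rw [not_or, not_not] at hc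
  have hElH : El H := hE.el.mono hH.le
  have hui : u⁻¹ = u := inv_eq_of_mul_eq_one_right hu2
  have huv : u * v = v * u := by
    calc u * v = (u * v)⁻¹ := (inv_eq_of_mul_eq_one_right hc.2).symm
      _ = v * u := by rw [mul_inv_rev, hui, inv_eq_of_mul_eq_one_right hv2]
  have n1 : ∀ w ∈ H, u * w * u⁻¹ ∈ H := fun w hw => by
    rw [h.cen u hu w hw, mul_inv_cancel_right]; exact hw
  have s1 : u * u ∈ H := by rw [hu2]; exact H.one_mem
  have c2 : ∀ k ∈ H ⊔ zpowers u, k * v = v * k := fun k hk => by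
    rcases (mem_sup_zpowers n1 s1).1 hk with a | a
    · exact (h.cen v hv k a).symm
    · have a1 := h.cen v hv _ a
      calc k * v = u * (u⁻¹ * k * v) := by group
        _ = u * v * (u⁻¹ * k) := by rw [← a1]; group
        _ = v * k := by rw [huv]; group
  have k1 := (hy_sup_zpowers n1 s1 hu').card
  have k2 := (hy_sup_zpowers (W := H ⊔ zpowers u) (x := v)
    (fun w hw => by rw [← c2 w hw, mul_inv_cancel_right]; exact hw)
    (by rw [hv2]; exact one_mem _) (fun hm => by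
      rcases (mem_sup_zpowers n1 s1).1 hm with a | a
      · exact hv' a
      · exact hc.1 (by rwa [hui] at a))).card
  have k3 := hE.max _ (al1_el_sup (al1_el_sup hElH hu2 fun k hk => (h.cen u hu k hk).symm) hv2 c2)
  have k4 := hH.card
  have k5 : 0 < Nat.card H := Nat.card_pos
  omega

theorem dih_one {E H : Subgroup G} (hE : Mx E) (h8 : 8 ≤ Nat.card E) (hT : AllTv E) (hS : Sy E)
    (hH : Hy H E) {e : G} (he : e ∈ E) (he' : e ∉ H) : ∃ A, Dih H e A 1 := by
  have _ := h8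
  obtain ⟨R, h⟩ := al1_exists hE.el hT hS hH he he'
  have hee := hE.el e he
  have heR := h.le he
  have hI : ∀ a ∈ R, (a ∈ H ∨ a * a ≠ 1) → e * a ∉ H ∧ a * e ∉ H ∧ e * a * (e * a) = 1 :=
    fun a ha ha' => by
      by_cases haH : a ∈ H
      · exact ⟨hH.mul_notMem he' haH, hH.mul_notMem' he' haH, hE.el _ (E.mul_mem he (hH.le haH))⟩
      · have a1 := ha'.resolve_left haH
        have a2 : a ∉ E := fun h' => a1 (hE.el a h')
        have a3 := (al1_K h hE.el hH he he' ha fun h' => a2 (h.ker a ha h')).resolve_left a1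
        refine ⟨fun h' => a2 (by simpa using E.mul_mem (E.inv_mem he) (hH.le h')),
          fun h' => a2 (by simpa using E.mul_mem (hH.le h') (E.inv_mem he)), ?_⟩
        rw [h.sq_mul hE.el ha he he', a3]
        exact hE.el _ (hH.le (h.mem a ha))
  let A : Subgroup G :=
    { carrier := {a | a ∈ R ∧ (a ∈ H ∨ a * a ≠ 1)}
      one_mem' := ⟨R.one_mem, Or.inl H.one_mem⟩
      mul_mem' := by
        rintro a b ⟨ha, ha'⟩ ⟨hb, hb'⟩
        obtain ⟨-, a2, a3⟩ := hI a ha ha'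
        obtain ⟨b1, -, b3⟩ := hI b hb hb'
        have e1 : a * b = a * e * (e * b) := by
          calc a * b = a * (e * e) * b := by rw [hee, mul_one]
            _ = _ := by group
        refine ⟨R.mul_mem ha hb, ?_⟩
        rw [e1]
        refine al1_two h hE hH (R.mul_mem ha heR) (R.mul_mem heR hb) a2 b1 ?_ b3
        calc a * e * (a * e) = e⁻¹ * (e * a * (e * a)) * e := by group
          _ = 1 := by rw [a3]; group
      inv_mem' := by
        rintro a ⟨ha, ha'⟩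
        refine ⟨R.inv_mem ha, ha'.imp H.inv_mem fun h1 h2 => h1 ?_⟩
        rw [← mul_inv_rev, inv_eq_one] at h2
        exact h2 }
  have hA : ∀ a, a ∈ A ↔ a ∈ R ∧ (a ∈ H ∨ a * a ≠ 1) := fun a => Iff.rfl
  have honto : ∀ x ∈ H, ∃ a ∈ A, a * a = x := fun x hx => by
    by_cases h1 : x = 1
    · exact ⟨1, A.one_mem, by rw [h1, mul_one]⟩
    obtain ⟨y, hy, e1⟩ := h.onto x hx
    rcases al1_K h hE.el hH he he' hy (by rwa [e1]) with a | a
    · have a1 : e * y * (e * y) = x := by rw [h.sq_mul hE.el hy he he', a, e1, mul_one]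
      exact ⟨e * y, (hA _).2 ⟨R.mul_mem heR hy, Or.inr (by rwa [a1])⟩, a1⟩
    · exact ⟨y, (hA _).2 ⟨hy, Or.inr (by rwa [a, e1])⟩, a.trans e1⟩
  have hsq : ∀ a ∈ A, a * a = 1 → a ∈ H := fun a ha h1 =>
    ((hA a).1 ha).2.resolve_right (not_not.2 h1)
  refine ⟨A, fun x hx => (hA x).2 ⟨h.le (hH.le hx), Or.inl hx⟩, fun a ha => ?_, hsq,
    fun a ha => ?_, fun x hx => ?_, fun a ha h1 => ?_, fun W₀ hW₀ c hc => ?_⟩
  · have a1 := (hI a ((hA a).1 ha).1 ((hA a).1 ha).2).2.2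
    rw [inv_eq_of_mul_eq_one_right hee]
    exact eq_inv_of_mul_eq_one_left (by rw [← a1]; group)
  · rw [pow_one, pow_two]; exact h.sq hE.el hH he he' ((hA a).1 ha).1
  · simpa only [pow_one, pow_two] using honto x hx
  · rw [pow_one, pow_two] at h1
    obtain ⟨b, hb, e1⟩ := honto a (hsq a ha h1)
    exact ⟨b, hb, e1.symm⟩
  · obtain ⟨x₀, hx₀, hx₀'⟩ := hW₀.ex
    have hWE : W₀ ≤ E := hW₀.le.trans hH.le
    obtain ⟨W, hW, hle, hx⟩ := hE.el.exists_hy (K := W₀ ⊔ zpowers e)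
      (sup_le hWE (zpowers_le.2 he)) (hH.le hx₀) (fun hm => by
        rcases (mem_sup_zpowers (fun w hw => by
          rw [hE.el.comm he (hWE hw), mul_inv_cancel_right]; exact hw)
          (by rw [hee]; exact W₀.one_mem)).1 hm with a | a
        · exact hx₀' a
        · exact he' (by simpa using H.mul_mem hx₀ (H.inv_mem (hW₀.le a))))
    have hle1 : W₀ ≤ W := le_sup_left.trans hle
    obtain ⟨g, hgR, hg, -⟩ := h.fr W hW c (hle1 hc) (hW₀.le hc)
    refine ⟨g, ⟨fun x hx' => hg.fix x (hle1 hx'), fun x hx1 hx2 => hg.mv x (hH.le hx1) fun hw => hx ?_⟩,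
      mem_normalizer_of_forall fun a ha => ?_, ?_⟩
    · simpa using W.mul_mem (W.inv_mem hw) (hle1 (hW₀.mul x hx1 x₀ hx₀ hx2 hx₀'))
    · obtain ⟨ha1, ha2⟩ := (hA a).1 ha
      refine (hA _).2 ⟨conj_mem_of_mem_normalizer hgR ha1,
        ha2.imp (al1_tv_mem hH.le (hW₀.le hc) hg) fun h1 h2 => h1 ?_⟩
      calc a * a = g⁻¹ * (g * a * g⁻¹ * (g * a * g⁻¹)) * g := by group
        _ = 1 := by rw [h2]; group
    · have : g * e * g⁻¹ = e := hg.fix e (hle (mem_sup_right (mem_zpowers e)))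
      rw [this, inv_mul_cancel]; exact A.one_mem

end CfsgLib.Hom
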