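import Mathlib
import Cfsg.Agent.Lib.Hom.Defs

/-! Homogeneous groups: central automorphisms of a Sylow subgroup of `C(E)`. -/

set_option autoImplicit false

namespace CfsgLib.Hom
open Subgroup CfsgLib.Tech
open _root_.Classical

variable {G : Type*} [Group G] [Finite G]

omit [Finite G] in
theorem Tv.symm_apply {φ : G ≃* G} {Y W : Subgroup G} {c : G} (h : Tv φ Y W c) (_hW : Hy W Y)
    (hc : c ∈ W) {y : G} (hy : y ∈ Y) : φ.symm y = y * (if y ∈ W then 1 else c⁻¹) := by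
  rw [MulEquiv.symm_apply_eq]
  split_ifs with hw
  · rw [mul_one, h.fix y hw]
  · rw [map_mul, h.mv y hy hw, h.fix _ (W.inv_mem hc), mul_inv_cancel_right]

omit [Finite G] in
theorem Tv.apply {φ : G → G} {Y W : Subgroup G} {c : G} (h : Tv φ Y W c)
    {y : G} (hy : y ∈ Y) : φ y = y * (if y ∈ W then 1 else c) := by
  split_ifs with hw
  · rw [mul_one, h.fix y hw]
  · rw [h.mv y hy hw]

/-- the commutator of the central automorphism `(W, c)` of `T` with `g` is inner -/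
theorem key (hG : Hg G) {E T W : Subgroup G} (hE : El E) (hEW : E ≤ W) (hW : Hy W T)
    (hT : IsSylowIn 2 T (centralizer (E : Set G))) {c g : G} (hc : c ∈ E)
    (hgT : g ∈ normalizer (T : Set G)) (hgE : g ∈ normalizer (E : Set G)) :
    ∃ w ∈ T, ∀ y ∈ T, w * y * w⁻¹ =
      y * (if y ∈ W then 1 else c) * (if g⁻¹ * y * g ∈ W then 1 else g * c * g⁻¹) := by
  have hcm : ∀ y ∈ T, ∀ x ∈ E, y * x = x * y := fun y hy x hx =>
    (mem_centralizer_iff.1 (hT.le hy) x hx).symm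
  obtain ⟨φ, hφ⟩ := hG.tr hW (hEW hc) (hE c hc) fun y hy => hcm y hy c hc
  have hc' : g * c * g⁻¹ ∈ E := conj_mem_of_mem_normalizer hgE hc
  set n := φ g * g⁻¹ with hn
  let j : G → G := fun y =>
    (if y ∈ W then 1 else c) * (if g⁻¹ * y * g ∈ W then 1 else g * c * g⁻¹)
  have hj : ∀ y, j y ∈ E := fun y => E.mul_mem (by split_ifs; exacts [E.one_mem, hc])
    (by split_ifs; exacts [E.one_mem, hc'])
  have act : ∀ y ∈ T, n * y * n⁻¹ = y * j y := fun y hy => by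
    rw [hn, comm_act, hφ.symm_apply hW (hEW hc) (conj_mem_of_mem_normalizer' hgT hy), hE.inv hc]
    have e : g * (g⁻¹ * y * g * (if g⁻¹ * y * g ∈ W then 1 else c)) * g⁻¹ =
        y * (if g⁻¹ * y * g ∈ W then 1 else g * c * g⁻¹) := by
      split_ifs <;> group
    rw [e, map_mul, hφ.apply hy, hφ.fix _ (hEW (by split_ifs; exacts [E.one_mem, hc'])), mul_assoc]
  have hnE : ∀ x ∈ E, n * x * n⁻¹ = x := fun x hx => by
    rw [act x (hW.le (hEW hx))]
    simp only [j, if_pos (hEW hx), if_pos (hEW (conj_mem_of_mem_normalizer' hgE hx)), mul_one]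
  have hnC : n ∈ centralizer (E : Set G) := mem_centralizer_iff.2 fun x hx => by
    rw [← mul_inv_eq_iff_eq_mul.1 (hnE x hx)]
  have hnT : n ∈ normalizer (T : Set G) := mem_normalizer_of_forall fun y hy => by
    rw [act y hy]; exact T.mul_mem hy (hW.le (hEW (hj y)))
  have hpow : ∀ (k : ℕ), ∀ y ∈ T, n ^ k * y * (n ^ k)⁻¹ = y * j y ^ k := fun k y hy => by
    induction k with
    | zero => simp
    | succ k ih =>
      calc n ^ (k + 1) * y * (n ^ (k + 1))⁻¹ = n * (n ^ k * y * (n ^ k)⁻¹) * n⁻¹ := by group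
        _ = n * y * n⁻¹ * (n * j y ^ k * n⁻¹) := by rw [ih]; group
        _ = y * j y ^ (k + 1) := by rw [act y hy, hnE _ (pow_mem (hj y) k)]; group
  obtain ⟨k, i, hk, e⟩ := exists_ppart 2 n
  refine ⟨n ^ k, hT.le_of_normalizes (isPGroup_zpowers_of_pow e) (zpowers_le.2 (pow_mem hnC k))
    (zpowers_le.2 (pow_mem hnT k)) (mem_zpowers _), fun y hy => ?_⟩
  obtain ⟨m, rfl⟩ : Odd k := Nat.not_even_iff_odd.1 fun h => hk h.two_dvd
  rw [hpow _ y hy, pow_succ, pow_mul, pow_two, hE _ (hj y), one_pow, one_mul, mul_assoc]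

/-- the conjugates of `w` in `wK` under `N ≤ C(K)` are conjugates under a Sylow subgroup `T` of `N`
with `[T, w] ≤ K` -/
theorem img_syl {K T N : Subgroup G} (hK : El K) (hN : ∀ n ∈ N, ∀ k ∈ K, n * k = k * n)
    (hT : IsSylowIn 2 T N) {w : G} (hTw : ∀ t ∈ T, w⁻¹ * (t * w * t⁻¹) ∈ K) {n : G} (hn : n ∈ N)
    (hd : w⁻¹ * (n * w * n⁻¹) ∈ K) : ∃ t ∈ T, t * w * t⁻¹ = n * w * n⁻¹ := by
  have hm : ∀ a ∈ N, ∀ b, w⁻¹ * (b * w * b⁻¹) ∈ K →
      w⁻¹ * (a * b * w * (a * b)⁻¹) = w⁻¹ * (a * w * a⁻¹) * (w⁻¹ * (b * w * b⁻¹)) := fun a ha b hb => by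
    calc w⁻¹ * (a * b * w * (a * b)⁻¹) = w⁻¹ * (a * w * a⁻¹) * (a * (w⁻¹ * (b * w * b⁻¹))) * a⁻¹ := by
          group
      _ = _ := by rw [hN a ha _ hb]; group
  let M : Subgroup G :=
    { carrier := {a | a ∈ N ∧ w⁻¹ * (a * w * a⁻¹) ∈ K}
      one_mem' := ⟨N.one_mem, by simp⟩
      mul_mem' := fun {a b} ha hb => ⟨N.mul_mem ha.1 hb.1, by
        rw [hm a ha.1 b hb.2]; exact K.mul_mem ha.2 hb.2⟩
      inv_mem' := fun {a} ha => ⟨N.inv_mem ha.1, by
        have h1 := hm a⁻¹ (N.inv_mem ha.1) a ha.2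
        have h2 : w⁻¹ * (a⁻¹ * w * a⁻¹⁻¹) = (w⁻¹ * (a * w * a⁻¹))⁻¹ :=
          eq_inv_of_mul_eq_one_left (by rw [← h1]; group)
        rw [h2]; exact K.inv_mem ha.2⟩ }
  obtain ⟨t, ht, e⟩ := syl_image (p := 2) (N := M)
    (hT.of_le (fun t ht => ⟨hT.le ht, hTw t ht⟩) fun a ha => ha.1)
    (fun a => w⁻¹ * (a * w * a⁻¹)) (fun a ha b hb => hm a ha.1 b hb.2)
    (fun a ha b hb => hK.comm ha.2 hb.2)
    (fun a ha => ⟨1, by rw [pow_one, pow_two]; exact hK _ ha.2⟩) (n := n) ⟨hn, hd⟩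
  exact ⟨t, ht, mul_left_cancel e⟩

end CfsgLib.Hom
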