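import Mathlib
import Cfsg.Agent.Lib.Hom.KEY

/-! Homogeneous groups: the ascent. -/

set_option autoImplicit false

namespace CfsgLib.Hom
open Subgroup CfsgLib.Tech
open _root_.Classical

variable {G : Type*} [Group G]

/-- `y e y⁻¹ = e * th e y` -/
def th (e y : G) : G := e⁻¹ * (y * e * y⁻¹)

theorem th_mul' {A : Subgroup G} {e y y' : G} (hy : ∀ a ∈ A, y * a = a * y) (h' : th e y' ∈ A) :
    th e (y * y') = th e y * th e y' := by
  calc th e (y * y') = th e y * (y * th e y') * y⁻¹ := by simp only [th]; group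
    _ = _ := by rw [hy _ h']; group

/-- the elements centralizing `A` and moving `e` inside `eA` -/
def Mg (A : Subgroup G) (e : G) : Subgroup G where
  carrier := {y | (∀ a ∈ A, y * a = a * y) ∧ th e y ∈ A}
  one_mem' := ⟨by simp, by simp [th]⟩
  mul_mem' := fun {a b} ha hb => ⟨fun x hx => by
      rw [mul_assoc, hb.1 x hx, ← mul_assoc, ha.1 x hx, mul_assoc], by
    rw [th_mul' ha.1 hb.2]; exact A.mul_mem ha.2 hb.2⟩
  inv_mem' := fun {a} ha => by
    have h0 : ∀ x ∈ A, a⁻¹ * x = x * a⁻¹ := fun x hx => (Commute.inv_left (ha.1 x hx)).eq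
    refine ⟨h0, ?_⟩
    have h1 := th_mul' h0 ha.2
    have h2 : th e a⁻¹ = (th e a)⁻¹ :=
      eq_inv_of_mul_eq_one_left (by rw [← h1]; simp [th])
    rw [h2]; exact A.inv_mem ha.2

theorem th_mul {A : Subgroup G} {e y y' : G} (hy : y ∈ Mg A e) (h' : y' ∈ Mg A e) :
    th e (y * y') = th e y * th e y' := th_mul' hy.1 h'.2

theorem th_inv {A : Subgroup G} {e y : G} (hy : y ∈ Mg A e) : th e y⁻¹ = (th e y)⁻¹ :=
  eq_inv_of_mul_eq_one_left (by rw [← th_mul (inv_mem hy) hy]; simp [th])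

namespace Dih
variable {H A : Subgroup G} {e : G} {j : ℕ}

theorem comm (hA : Dih H e A j) {a b : G} (ha : a ∈ A) (hb : b ∈ A) : a * b = b * a := by
  have h1 := hA.inv _ (A.mul_mem ha hb)
  have h2 : e * (a * b) * e⁻¹ = a⁻¹ * b⁻¹ := by rw [← hA.inv a ha, ← hA.inv b hb]; group
  rw [h2] at h1
  have := congrArg (·⁻¹) h1
  simpa using this.symm

theorem inv' (hA : Dih H e A j) {a : G} (ha : a ∈ A) : e⁻¹ * a * e = a⁻¹ := by
  have := hA.inv _ (A.inv_mem ha)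
  rw [inv_inv] at this
  calc e⁻¹ * a * e = e⁻¹ * (e * a⁻¹ * e⁻¹) * e := by rw [this]
    _ = a⁻¹ := by group

theorem th_A (hA : Dih H e A j) {a : G} (ha : a ∈ A) : th e a = (a * a)⁻¹ := by
  calc th e a = e⁻¹ * a * e * a⁻¹ := by simp only [th]; group
    _ = _ := by rw [hA.inv' ha]; group

theorem le_Mg (hA : Dih H e A j) : A ≤ Mg A e := fun a ha =>
  ⟨fun b hb => hA.comm ha hb, by rw [hA.th_A ha]; exact A.inv_mem (A.mul_mem ha ha)⟩

theorem exists_sq (hA : Dih H e A j) (hj : 1 ≤ j) {d : G} (hd : d ∈ H) : ∃ b ∈ A, b * b = d := by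
  obtain ⟨a, ha, e⟩ := hA.onto d hd
  obtain ⟨i, rfl⟩ : ∃ i, j = i + 1 := ⟨j - 1, by omega⟩
  exact ⟨a ^ 2 ^ i, pow_mem ha _, by rw [← e, pow_succ, pow_mul, pow_two]⟩

theorem pw_mul (hA : Dih H e A j) {a b : G} (ha : a ∈ A) (hb : b ∈ A) (n : ℕ) :
    (a * b) ^ n = a ^ n * b ^ n := Commute.mul_pow (hA.comm ha hb) n

/-- `g⁻¹ e g ∈ eA` -/
theorem th_inv_mem {g : G} (hg : g ∈ normalizer (A : Set G)) (ht : th e g ∈ A) :
    ∃ c ∈ A, g⁻¹ * e * g = e * c :=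
  ⟨g⁻¹ * (th e g)⁻¹ * g, conj_mem_of_mem_normalizer' hg (A.inv_mem ht), by simp only [th]; group⟩

theorem th_conj (hA : Dih H e A j) {g y : G} (hg : g ∈ normalizer (A : Set G)) (ht : th e g ∈ A)
    (hy : y ∈ Mg A e) : th e (g * y * g⁻¹) = g * th e y * g⁻¹ := by
  obtain ⟨c, hc, ec⟩ := th_inv_mem hg ht
  calc th e (g * y * g⁻¹) = e⁻¹ * g * y * (g⁻¹ * e * g) * y⁻¹ * g⁻¹ := by simp only [th]; group
    _ = e⁻¹ * g * (y * e * y⁻¹) * (y * c) * y⁻¹ * g⁻¹ := by rw [ec]; group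
    _ = e⁻¹ * g * e * (th e y * c) * g⁻¹ := by rw [hy.1 c hc]; simp only [th]; group
    _ = e⁻¹ * g * (e * c) * th e y * g⁻¹ := by rw [hA.comm hy.2 hc]; group
    _ = _ := by rw [← ec]; group

theorem conj_mem_Mg (hA : Dih H e A j) {g y : G} (hg : g ∈ normalizer (A : Set G))
    (ht : th e g ∈ A) (hy : y ∈ Mg A e) : g * y * g⁻¹ ∈ Mg A e := by
  refine ⟨fun a ha => ?_, by rw [hA.th_conj hg ht hy]; exact conj_mem_of_mem_normalizer hg hy.2⟩
  have := hy.1 _ (conj_mem_of_mem_normalizer' hg ha)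
  calc g * y * g⁻¹ * a = g * (y * (g⁻¹ * a * g)) * g⁻¹ := by group
    _ = _ := by rw [this]; group

theorem k_mul (hA : Dih H e A j) {y a : G} (hy : y ∈ Mg A e) (ha : a ∈ A) :
    e * (y * a) * (e * (y * a)) = e * y * (e * y) := by
  calc e * (y * a) * (e * (y * a)) = e * y * e * (e⁻¹ * a * e) * (y * a) := by group
    _ = _ := by rw [hA.inv' ha, hy.1 a ha]; group

theorem k_conj (hA : Dih H e A j) {g y : G} (hg : g ∈ normalizer (A : Set G)) (ht : th e g ∈ A)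
    (hy : y ∈ Mg A e) :
    e * (g * y * g⁻¹) * (e * (g * y * g⁻¹)) = g * (e * y * (e * y)) * g⁻¹ := by
  obtain ⟨c, hc, ec⟩ := th_inv_mem hg ht
  have : e * (g * y * g⁻¹) = g * (e * (y * c)) * g⁻¹ := by
    rw [hy.1 c hc, ← mul_assoc e c y, ← ec]; group
  rw [this, ← hA.k_mul hy hc]; group

end Dih

variable [Finite G]

/-- the data of the inductive step -/
structure Cx (E H A : Subgroup G) (e : G) (j : ℕ) : Prop where
  hG : Hg G
  hE : El E
  h8 : 8 ≤ Nat.card E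
  hS : Sy E
  hH : Hy H E
  he : e ∈ E
  he' : e ∉ H
  hj : 1 ≤ j
  hA : Dih H e A j

namespace Cx
variable {E H A : Subgroup G} {e : G} {j : ℕ}

omit [Finite G] in
theorem elH (c : Cx E H A e j) : El H := c.hE.mono c.hH.le

omit [Finite G] in
theorem four (c : Cx E H A e j) : 4 ≤ Nat.card H := by have := c.hH.card; have := c.h8; omega

omit [Finite G] in
theorem ee (c : Cx E H A e j) : e * e = 1 := c.hE e c.he

omit [Finite G] in
theorem einv (c : Cx E H A e j) : e⁻¹ = e := c.hE.inv c.he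

omit [Finite G] in
theorem notMem (c : Cx E H A e j) : e ∉ A := fun h => c.he' (c.hA.sq e h c.ee)

omit [Finite G] in
theorem conjA (c : Cx E H A e j) : ∀ a ∈ A, e * a * e⁻¹ ∈ A := fun a ha => by
  rw [c.hA.inv a ha]; exact A.inv_mem ha

omit [Finite G] in
theorem memE (c : Cx E H A e j) {x : G} (hx : x ∈ E) : x ∈ H ∨ e⁻¹ * x ∈ H := by
  by_cases h : x ∈ H
  · exact Or.inl h
  · exact Or.inr (c.hH.inv_mul c.he hx c.he' h)

omit [Finite G] in
theorem pw_two (c : Cx E H A e j) {a : G} (ha : a ∈ A) : a ^ 2 ^ (j + 1) = 1 := by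
  rw [pow_succ, pow_mul, pow_two]; exact c.elH _ (c.hA.pw a ha)

theorem transl (c : Cx E H A e j) {c0 : G} (h0 : c0 ∈ H) : ∃ y ∈ Mg A e, th e y ^ 2 ^ j = c0 := by
  obtain ⟨h, hh, h1, h2, -⟩ := exists_ne_three c.four 1 c0 c0
  obtain ⟨W, hW, hc, hh'⟩ := c.elH.exists_hy' h0 hh h1 h2
  obtain ⟨g, hg, hgA, ht⟩ := c.hA.big W hW c0 hc
  obtain ⟨a, ha, ea⟩ := c.hA.onto h hh
  have hs : e * e ∈ A := by rw [c.ee]; exact A.one_mem
  have hR := hy_sup_zpowers c.conjA hs c.notMem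
  obtain ⟨φ, hφ⟩ := c.hG.tr' hR ha (fun w hw => c.hA.comm hw ha) fun y hy hy' => by
    have hb := ((mem_sup_zpowers c.conjA hs).1 hy).resolve_left hy'
    calc y * a * y⁻¹ = e * (e⁻¹ * y * a) * y⁻¹ := by group
      _ = e * a * e⁻¹ := by rw [c.hA.comm hb ha]; group
      _ = a⁻¹ := c.hA.inv a ha
  have heR : e ∈ A ⊔ zpowers e := mem_sup_right (mem_zpowers e)
  obtain ⟨d, hd, ed⟩ := Dih.th_inv_mem hgA ht
  have ha' : g * a * g⁻¹ ∈ A := conj_mem_of_mem_normalizer hgA ha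
  have e1 : th e (φ g * g⁻¹) = a * (g * a * g⁻¹)⁻¹ := by
    rw [th, comm_act, ed, hφ.symm_apply hR ha (mul_mem heR (hR.le hd)),
      if_neg (hR.mul_notMem c.notMem hd), ← ed]
    have : g * (g⁻¹ * e * g * a⁻¹) * g⁻¹ = e * (g * a * g⁻¹)⁻¹ := by group
    rw [this, map_mul, hφ.mv e heR c.notMem, hφ.fix _ (A.inv_mem ha')]; group
  refine ⟨φ g * g⁻¹, ⟨fun x hx => ?_, by rw [e1]; exact A.mul_mem ha (A.inv_mem ha')⟩, ?_⟩
  · have hx' := conj_mem_of_mem_normalizer' hgA hx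
    rw [← mul_inv_eq_iff_eq_mul, comm_act, hφ.symm_apply hR ha (hR.le hx'), if_pos hx']
    have : g * (g⁻¹ * x * g * 1) * g⁻¹ = x := by group
    rw [this, hφ.fix x hx]
  · rw [e1, c.hA.pw_mul ha (A.inv_mem ha'), inv_pow, conj_pow, ea]
    have := hg.mv h hh hh'
    rw [this, c.elH.comm hh h0, mul_inv_rev, mul_inv_cancel_left, c.elH.inv h0]

theorem th_onto (c : Cx E H A e j) {a : G} (ha : a ∈ A) : ∃ y ∈ Mg A e, th e y = a := by
  obtain ⟨y, hy, e1⟩ := c.transl (c.hA.pw a ha)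
  obtain ⟨b, hb, e2⟩ := c.hA.ker (a * (th e y)⁻¹) (A.mul_mem ha (A.inv_mem hy.2)) (by
    rw [c.hA.pw_mul ha (A.inv_mem hy.2), inv_pow, e1, mul_inv_cancel])
  refine ⟨b⁻¹ * y, mul_mem (c.hA.le_Mg (A.inv_mem hb)) hy, ?_⟩
  rw [th_mul (c.hA.le_Mg (A.inv_mem hb)) hy, c.hA.th_A (A.inv_mem hb), mul_inv_rev, inv_inv, ← e2,
    inv_mul_cancel_right]

theorem eNA (c : Cx E H A e j) : e ∈ normalizer (A : Set G) := mem_normalizer_of_forall c.conjA

theorem exists_P (c : Cx E H A e j) :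
    ∃ P, IsSylowIn 2 P (Mg A e) ∧ A ≤ P ∧ e ∈ normalizer (P : Set G) := by
  have hs : e * e ∈ A := by rw [c.ee]; exact A.one_mem
  have h2 : IsPGroup 2 (A ⊔ zpowers e : Subgroup G) := isPGroup_iff_mem.2 fun x hx => by
    rcases (mem_sup_zpowers c.conjA hs).1 hx with h | h
    · exact ⟨j + 1, c.pw_two h⟩
    · refine ⟨1, ?_⟩
      have h1 := c.hA.inv _ h
      calc x ^ 2 ^ 1 = e * (e⁻¹ * x) * e⁻¹ * (e * e) * (e⁻¹ * x) := by rw [pow_one, pow_two]; group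
        _ = 1 := by rw [h1, c.ee]; group
  have hn : e ∈ normalizer (Mg A e : Set G) :=
    mem_normalizer_of_forall fun y hy => c.hA.conj_mem_Mg c.eNA (by simp [th]) hy
  obtain ⟨Q, hQ, hle⟩ := exists_isSylowIn_ge (H := Mg A e ⊔ zpowers e) h2
    (sup_le_sup_right c.hA.le_Mg _)
  have h3 := hQ.inf_of_le_normalizer (N := Mg A e) (sup_le le_normalizer (zpowers_le.2 hn))
  rw [inf_eq_right.2 (le_sup_left : Mg A e ≤ Mg A e ⊔ zpowers e)] at h3
  refine ⟨Q ⊓ Mg A e, h3, le_inf (le_sup_left.trans hle) c.hA.le_Mg,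
    mem_normalizer_of_forall fun y hy => ⟨?_, conj_mem_of_mem_normalizer hn hy.2⟩⟩
  have he : e ∈ Q := hle (mem_sup_right (mem_zpowers e))
  exact Q.mul_mem (Q.mul_mem he hy.1) (Q.inv_mem he)

section P
variable {P : Subgroup G}

theorem kerP (c : Cx E H A e j) (hP : IsSylowIn 2 P (Mg A e)) {y : G} (hy : y ∈ P)
    (h : th e y = 1) : y ∈ H := by
  have hM := hP.le hy
  have hye : y * e = e * y := by
    rw [th, inv_mul_eq_one] at h
    exact mul_inv_eq_iff_eq_mul.1 h.symm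
  obtain ⟨k, hk⟩ := isPGroup_iff_mem.1 hP.pgroup y hy
  have hE : y ∈ E := c.hS y k hk fun x hx => by
    rcases c.memE hx with h | h
    · exact hM.1 x (c.hA.le h)
    · calc y * x = y * e * (e⁻¹ * x) := by group
        _ = e * (y * (e⁻¹ * x)) := by rw [hye]; group
        _ = x * y := by rw [hM.1 _ (c.hA.le h)]; group
  refine (c.memE hE).resolve_right fun h' => ?_
  obtain ⟨d, hd, d1, -⟩ := exists_ne_three c.four 1 1 1
  obtain ⟨b, hb, eb⟩ := c.hA.exists_sq c.hj hd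
  apply d1
  have h1 : e * b * e⁻¹ = b := by
    calc e * b * e⁻¹ = e * (b * (e⁻¹ * y)) * y⁻¹ := by group
      _ = y * b * y⁻¹ := by rw [c.hA.comm hb (c.hA.le h')]; group
      _ = b := by rw [hM.1 b hb]; group
  rw [c.hA.inv b hb] at h1
  rw [← eb]
  exact mul_eq_one_iff_inv_eq.2 h1

theorem ontoP (c : Cx E H A e j) (hP : IsSylowIn 2 P (Mg A e)) {a : G} (ha : a ∈ A) :
    ∃ y ∈ P, th e y = a := by
  obtain ⟨y, hy, rfl⟩ := c.th_onto ha
  exact syl_image hP (th e) (fun x hx y hy => th_mul hx hy) (fun x hx y hy => c.hA.comm hx.2 hy.2)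
    (fun x hx => ⟨j + 1, c.pw_two hx.2⟩) hy

omit [Finite G] in
theorem k_eq (c : Cx E H A e j) (y : G) : e * y * (e * y) = th e y * (y * y) := by
  rw [th, c.einv]; group

theorem k_mem (c : Cx E H A e j) (hP : IsSylowIn 2 P (Mg A e)) (hAP : A ≤ P) {y : G}
    (hy : y ∈ P) : e * y * (e * y) ∈ H := by
  have hM := hP.le hy
  rw [c.k_eq]
  refine c.kerP hP (P.mul_mem (hAP hM.2) (P.mul_mem hy hy)) ?_
  rw [th_mul (c.hA.le_Mg hM.2) (mul_mem hM hM), th_mul hM hM, c.hA.th_A hM.2, inv_mul_cancel]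

theorem modA (c : Cx E H A e j) (hP : IsSylowIn 2 P (Mg A e)) (hAP : A ≤ P) {y y' : G}
    (hy : y ∈ P) (hy' : y' ∈ P) (h : th e y ^ 2 ^ j = th e y' ^ 2 ^ j) : y⁻¹ * y' ∈ A := by
  have hM := hP.le hy
  have hM' := hP.le hy'
  obtain ⟨b, hb, e2⟩ := c.hA.ker ((th e y)⁻¹ * th e y') (A.mul_mem (A.inv_mem hM.2) hM'.2) (by
    rw [c.hA.pw_mul (A.inv_mem hM.2) hM'.2, inv_pow, h, inv_mul_cancel])
  have := c.kerP hP (P.mul_mem (P.mul_mem (P.inv_mem hy) hy') (hAP hb)) (by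
    rw [th_mul (mul_mem (inv_mem hM) hM') (c.hA.le_Mg hb), th_mul (inv_mem hM) hM', th_inv hM, e2,
      c.hA.th_A hb, mul_inv_cancel])
  simpa using A.mul_mem (c.hA.le this) (A.inv_mem hb)

theorem bigP (c : Cx E H A e j) (hP : IsSylowIn 2 P (Mg A e)) {W : Subgroup G} (hW : Hy W H)
    {d : G} (hd : d ∈ W) : ∃ g : G, Tv (fun x => g * x * g⁻¹) H W d ∧
      g ∈ normalizer (A : Set G) ∧ th e g ∈ A ∧ g ∈ normalizer (P : Set G) := by
  obtain ⟨g, hg, hgA, ht⟩ := c.hA.big W hW d hd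
  obtain ⟨m, hm, hn⟩ := hP.frattini' (g := g)
    (mem_normalizer_of_forall fun y hy => c.hA.conj_mem_Mg hgA ht hy)
  have h1 : ∀ x ∈ A, g * m * x * (g * m)⁻¹ = g * x * g⁻¹ := fun x hx => by
    rw [mul_assoc g m x, hm.1 x hx]; group
  refine ⟨g * m, ⟨fun x hx => (h1 x (c.hA.le (hW.le hx))).trans (hg.fix x hx),
    fun x hx hx' => (h1 x (c.hA.le hx)).trans (hg.mv x hx hx')⟩,
    mem_normalizer_of_forall fun x hx => ?_, ?_, hn⟩
  · rw [h1 x hx]; exact conj_mem_of_mem_normalizer hgA hx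
  · have : th e (g * m) = th e g * (g * th e m * g⁻¹) := by simp only [th]; group
    rw [this]
    exact A.mul_mem ht (conj_mem_of_mem_normalizer hgA hm.2)

/-- equivariance of `k` -/
theorem k_equiv (c : Cx E H A e j) (hP : IsSylowIn 2 P (Mg A e)) (hAP : A ≤ P) {g y y' : G}
    (hgA : g ∈ normalizer (A : Set G)) (ht : th e g ∈ A) (hgP : g ∈ normalizer (P : Set G))
    (hy : y ∈ P) (hy' : y' ∈ P) (h : g * th e y ^ 2 ^ j * g⁻¹ = th e y' ^ 2 ^ j) :
    e * y' * (e * y') = g * (e * y * (e * y)) * g⁻¹ := by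
  have h1 := conj_mem_of_mem_normalizer hgP hy
  have h2 := c.modA hP hAP h1 hy' (by rw [c.hA.th_conj hgA ht (hP.le hy), conj_pow, h])
  rw [← c.hA.k_conj hgA ht (hP.le hy), ← c.hA.k_mul (hP.le h1) h2, mul_inv_cancel_left]

theorem k_dich (c : Cx E H A e j) (hP : IsSylowIn 2 P (Mg A e)) (hAP : A ≤ P) {y : G}
    (hy : y ∈ P) : e * y * (e * y) = 1 ∨ e * y * (e * y) = th e y ^ 2 ^ j := by
  by_contra hc
  push Not at hc
  have hh := c.hA.pw _ (hP.le hy).2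
  have hk := c.k_mem hP hAP hy
  obtain ⟨W, hW, h1, h2⟩ := c.elH.exists_hy' hh hk hc.1 hc.2
  obtain ⟨d, hd, d1⟩ : ∃ d ∈ W, d ≠ 1 := by
    by_contra hn
    push Not at hn
    have h3 := hW.card
    rw [show W = ⊥ from eq_bot_iff.2 hn, card_bot] at h3
    have := c.four
    omega
  obtain ⟨g, hg, hgA, ht, hgP⟩ := c.bigP hP hW hd
  have h3 := c.k_equiv hP hAP hgA ht hgP hy hy (hg.fix _ h1)
  have h4 := hg.mv _ hk h2
  rw [h4] at h3
  exact d1 (by simpa using h3)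

theorem dih_of_k (c : Cx E H A e j) (hP : IsSylowIn 2 P (Mg A e)) (hAP : A ≤ P)
    (hk : ∀ y ∈ P, e * y * (e * y) = 1) : Dih H e P (j + 1) := by
  have h1 : ∀ y ∈ P, y * y = (th e y)⁻¹ := fun y hy =>
    eq_inv_of_mul_eq_one_right (by rw [← c.k_eq, hk y hy])
  have h2 : ∀ y ∈ P, y ^ 2 ^ (j + 1) = (th e y ^ 2 ^ j)⁻¹ := fun y hy => by
    rw [pow_succ', pow_mul, pow_two, h1 y hy, inv_pow]
  refine ⟨c.hA.le.trans hAP, fun y hy => ?_, fun y hy h => ?_, fun y hy => ?_, fun h hh => ?_,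
    fun y hy h => ?_, fun W hW d hd => ?_⟩
  · rw [c.einv]
    exact eq_inv_of_mul_eq_one_left (by rw [← hk y hy]; group)
  · exact c.kerP hP hy (by rwa [h1 y hy, inv_eq_one] at h)
  · rw [h2 y hy]; exact H.inv_mem (c.hA.pw _ (hP.le hy).2)
  · obtain ⟨a, ha, ea⟩ := c.hA.onto h hh
    obtain ⟨y, hy, ey⟩ := c.ontoP hP ha
    exact ⟨y, hy, by rw [h2 y hy, ey, ea, c.elH.inv hh]⟩
  · rw [h2 y hy, inv_eq_one] at h
    have h3 := c.modA hP hAP P.one_mem hy (by rw [h]; simp [th])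
    obtain ⟨x, hx, ex⟩ := c.ontoP hP (A.inv_mem h3)
    exact ⟨x, hx, by rw [h1 x hx, ex]; simp⟩
  · obtain ⟨g, hg, -, ht, hgP⟩ := c.bigP hP hW hd
    exact ⟨g, hg, hgP, hAP ht⟩

theorem k_all (c : Cx E H A e j) (hP : IsSylowIn 2 P (Mg A e)) (hAP : A ≤ P) {y0 : G}
    (h0 : y0 ∈ P) (hk : e * y0 * (e * y0) ≠ 1) {y : G} (hy : y ∈ P) :
    e * y * (e * y) = th e y ^ 2 ^ j := by
  have e0 := (c.k_dich hP hAP h0).resolve_left hk
  have hh0 := c.hA.pw _ (hP.le h0).2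
  have hh := c.hA.pw _ (hP.le hy).2
  by_cases h1 : th e y ^ 2 ^ j = 1
  · rcases c.k_dich hP hAP hy with h | h
    · rw [h, h1]
    · exact h
  by_cases h2 : th e y0 ^ 2 ^ j = th e y ^ 2 ^ j
  · rw [c.k_equiv hP hAP (g := 1) (one_mem _) (by simp [th]) (one_mem _) h0 hy (by simpa using h2),
      e0, h2]; simp
  obtain ⟨W, hW, a1, a2⟩ := c.elH.exists_hy' (H.mul_mem hh0 hh) hh0 (by rwa [← e0])
    (fun h => h1 (by simpa using h))
  obtain ⟨g, hg, hgA, ht, hgP⟩ := c.bigP hP hW a1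
  have h4 := hg.mv _ hh0 a2
  rw [← mul_assoc, c.elH _ hh0, one_mul] at h4
  rw [c.k_equiv hP hAP hgA ht hgP h0 hy h4, e0, h4]

theorem not_sd (c : Cx E H A e j) (hP : IsSylowIn 2 P (Mg A e)) (hAP : A ≤ P)
    (heP : e ∈ normalizer (P : Set G)) {y0 : G} (h0 : y0 ∈ P) : e * y0 * (e * y0) = 1 := by
  by_contra hk
  have hall := fun y (hy : y ∈ P) => c.k_all hP hAP h0 hk hy
  have hs : e * e ∈ P := by rw [c.ee]; exact P.one_mem
  have hn : ∀ w ∈ P, e * w * e⁻¹ ∈ P := fun w hw => conj_mem_of_mem_normalizer heP hw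
  have memQ : ∀ {x}, x ∈ P ⊔ zpowers e ↔ x ∈ P ∨ e⁻¹ * x ∈ P := mem_sup_zpowers hn hs
  have heQ : e ∈ P ⊔ zpowers e := mem_sup_right (mem_zpowers e)
  have hQ2 : IsPGroup 2 (P ⊔ zpowers e : Subgroup G) := isPGroup_iff_mem.2 fun x hx => by
    rcases memQ.1 hx with h | h
    · exact isPGroup_iff_mem.1 hP.pgroup x h
    · have := c.k_mem hP hAP h
      rw [mul_inv_cancel_left] at this
      exact ⟨2, by rw [show 2 ^ 2 = 2 * 2 by norm_num, pow_mul, pow_two, pow_two]; exact c.elH _ this⟩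
  have hQC : ∀ x ∈ P ⊔ zpowers e, ∀ h ∈ H, x * h = h * x := fun x hx h hh => by
    rcases memQ.1 hx with a | a
    · exact (hP.le a).1 h (c.hA.le hh)
    · calc x * h = e * (e⁻¹ * x * h) := by group
        _ = e * h * (e⁻¹ * x) := by rw [(hP.le a).1 h (c.hA.le hh)]; group
        _ = h * x := by rw [c.hE.comm c.he (c.hH.le hh)]; group
  have hQC' : P ⊔ zpowers e ≤ centralizer (H : Set G) := fun x hx =>
    mem_centralizer_iff.2 fun h hh => (hQC x hx h hh).symm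
  -- the involutions of `Q = P⟨e⟩` outside `H`
  have hinv : ∀ x ∈ P ⊔ zpowers e, x * x = 1 → x ∉ H → e⁻¹ * x ∈ A := fun x hx h2 hx' => by
    rcases memQ.1 hx with a | a
    · exfalso
      have h3 := c.k_mem hP hAP a
      have h4 := hall x a
      rw [c.k_eq, h2, mul_one] at h3 h4
      refine hx' (c.kerP hP a ?_)
      obtain ⟨i, hi⟩ : ∃ i, j = i + 1 := ⟨j - 1, by have := c.hj; omega⟩
      rw [h4, hi, pow_succ', pow_mul, pow_two, c.elH _ h3, one_pow]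
    · have h4 := hall _ a
      rw [mul_inv_cancel_left, h2] at h4
      simpa using c.modA hP hAP P.one_mem a (by rw [← h4]; simp [th])
  have hsyl : IsSylowIn 2 (P ⊔ zpowers e) (centralizer (H : Set G)) := by
    by_contra hns
    obtain ⟨R, hR, hlt, hRC, hRN⟩ := exists_lt_pgroup_normalizer hQ2 hQC' hns
    refine hlt.not_ge fun n hn' => ?_
    have hnH : ∀ h ∈ H, n * h = h * n := fun h hh => (mem_centralizer_iff.1 (hRC hn') h hh).symm
    have h1 := hinv _ (conj_mem_of_mem_normalizer (hRN hn') heQ)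
      (by calc n * e * n⁻¹ * (n * e * n⁻¹) = n * (e * e) * n⁻¹ := by group
        _ = 1 := by rw [c.ee]; group) fun h => c.he' (by
        have := hnH _ h
        have e1 : e = n * e * n⁻¹ := by
          calc e = n⁻¹ * (n * e * n⁻¹ * n) := by group
            _ = _ := by rw [← this]; group
        rwa [e1])
    obtain ⟨y, hy, ey⟩ := c.ontoP hP h1
    have hyR : y ∈ R := hlt.le (mem_sup_left hy)
    obtain ⟨k, hk⟩ := isPGroup_iff_mem.1 hR _ (R.mul_mem (R.inv_mem hyR) hn')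
    have h2 : y⁻¹ * n * e = e * (y⁻¹ * n) := by
      have := mul_left_cancel ey
      calc y⁻¹ * n * e = y⁻¹ * (n * e * n⁻¹) * n := by group
        _ = _ := by rw [← this]; group
    have h3 : ∀ h ∈ H, y⁻¹ * n * h = h * (y⁻¹ * n) := fun h hh => by
      rw [mul_assoc, hnH h hh, ← mul_assoc, (inv_mem (hP.le hy)).1 h (c.hA.le hh), mul_assoc]
    have hE : y⁻¹ * n ∈ E := c.hS _ k hk fun x hx => by
      rcases c.memE hx with h | h
      · exact h3 x h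
      · calc y⁻¹ * n * x = y⁻¹ * n * e * (e⁻¹ * x) := by group
          _ = e * (y⁻¹ * n * (e⁻¹ * x)) := by rw [h2]; group
          _ = x * (y⁻¹ * n) := by rw [h3 _ h]; group
    have h5 : y⁻¹ * n ∈ P ⊔ zpowers e := memQ.2 ((c.memE hE).imp (fun h => hAP (c.hA.le h))
      fun h => hAP (c.hA.le h))
    simpa using mul_mem (mem_sup_left hy : y ∈ P ⊔ zpowers e) h5
  have hh0 := c.k_mem hP hAP h0
  set t := e * y0 with ht
  obtain ⟨a, ha, ea⟩ := c.hA.exists_sq c.hj hh0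
  have htQ : t ∈ P ⊔ zpowers e := mul_mem heQ (mem_sup_left h0)
  obtain ⟨φ, f1, f2⟩ := c.hG.ext_sq (K := H) (x := t) (y := a) (fun h hh => (hQC t htQ h hh).symm)
    (fun h hh => c.hA.comm (c.hA.le hh) ha) (fun h => hk (c.elH t h))
    (fun h => hk (by rw [← ea]; exact c.elH a h)) hh0 ea.symm
  have hQa : ∀ x ∈ P ⊔ zpowers e, x * a * x⁻¹ = a ∨ x * a * x⁻¹ = a⁻¹ := fun x hx => by
    rcases memQ.1 hx with h | h
    · left; rw [(hP.le h).1 a ha]; group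
    · right
      calc x * a * x⁻¹ = e * (e⁻¹ * x * a) * x⁻¹ := by group
        _ = e * a * e⁻¹ := by rw [(hP.le h).1 a ha]; group
        _ = a⁻¹ := c.hA.inv a ha
  obtain ⟨d, hd, d1, d2, -⟩ := exists_ne_three c.four 1 (t * t) 1
  obtain ⟨b, hb, eb⟩ := c.hA.exists_sq c.hj hd
  have h1 : b * t * b⁻¹ = t * d⁻¹ := by
    calc b * t * b⁻¹ = e * (e⁻¹ * b * e) * y0 * b⁻¹ := by rw [ht]; group
      _ = e * (b⁻¹ * y0) * b⁻¹ := by rw [c.hA.inv' hb]; group
      _ = t * d⁻¹ := by rw [← (hP.le h0).1 _ (A.inv_mem hb), ← eb, ht]; group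
  have h2 : φ b * a * (φ b)⁻¹ = a * d⁻¹ := by
    rw [← f2, ← map_inv, ← map_mul, ← map_mul, h1, map_mul, f1 _ (H.inv_mem hd)]
  obtain ⟨x, hx, ex⟩ := img_syl (w := a) c.elH
    (fun n hn k hk => (mem_centralizer_iff.1 hn k hk).symm) hsyl (fun x hx => by
      rcases hQa x hx with h | h
      · rw [h]; simp
      · rw [h, ← mul_inv_rev, ea]; exact H.inv_mem hh0) (n := φ b)
    (mem_centralizer_iff.2 fun h hh => by
      rw [← f1 h hh, ← map_mul, ← map_mul, c.hA.comm (c.hA.le hh) hb])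
    (by rw [h2]; simpa using hd)
  rw [h2] at ex
  rcases hQa x hx with h | h
  · rw [h] at ex
    exact d1 (by simpa using ex)
  · rw [h] at ex
    apply d2
    rw [← ea]
    have : d⁻¹ = (a * a)⁻¹ := by
      calc d⁻¹ = a⁻¹ * (a * d⁻¹) := by group
        _ = _ := by rw [← ex]; group
    exact inv_injective this

end P
end Cx

theorem dih_succ (hG : Hg G) {E H : Subgroup G} (hE : El E) (h8 : 8 ≤ Nat.card E) (hS : Sy E)
    (hH : Hy H E) {e : G} (he : e ∈ E) (he' : e ∉ H) {A : Subgroup G} {j : ℕ} (hj : 1 ≤ j)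
    (hA : Dih H e A j) : ∃ P, Dih H e P (j + 1) := by
  have c : Cx E H A e j := ⟨hG, hE, h8, hS, hH, he, he', hj, hA⟩
  obtain ⟨P, hP, hAP, heP⟩ := c.exists_P
  exact ⟨P, c.dih_of_k hP hAP fun y hy => c.not_sd hP hAP heP hy⟩

end CfsgLib.Hom
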