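import Mathlib
import Cfsg.Agent.Lib.Hom.KEY

/-! Homogeneous groups: `E` is a Sylow 2-subgroup of its centralizer. -/

set_option autoImplicit false

namespace CfsgLib.Hom
open Subgroup CfsgLib.Tech
open _root_.Classical

variable {G : Type*} [Group G] [Finite G]

theorem beta_mem {E : Subgroup G} (hE : Mx E) {u : G} (hu : u * u = 1) (hc : u ∈ centralizer (E : Set G)) :
    u ∈ E := by
  by_contra n
  have hn : ∀ w ∈ E, u * w * u⁻¹ ∈ E := fun w hw => by rwa [← hc w hw, mul_inv_cancel_right]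
  have hs : u * u ∈ E := hu ▸ E.one_mem
  have := hE.max (E ⊔ zpowers u) fun y hy => by
    rcases (mem_sup_zpowers hn hs).1 hy with h | h
    · exact hE.el y h
    · have := hE.el _ h
      rw [← mul_inv_cancel_left u y, mul_assoc u, ← mul_assoc _ u, hc _ h, mul_assoc u, this, mul_one, hu]
  rw [(hy_sup_zpowers hn hs n).card] at this
  have : 0 < Nat.card E := Nat.card_pos
  omega

omit [Finite G] in
theorem beta_uniq {w : G} {n m : ℤ} (hn : w ^ n * w ^ n = 1) (hm : w ^ m * w ^ m = 1) (n1 : w ^ n ≠ 1)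
    (m1 : w ^ m ≠ 1) : w ^ n = w ^ m := by
  rw [← zpow_add, ← orderOf_dvd_iff_zpow_eq_one] at hn hm
  rw [Ne, ← orderOf_dvd_iff_zpow_eq_one] at n1 m1
  obtain ⟨s, hs⟩ := hn
  obtain ⟨t, ht⟩ := hm
  obtain ⟨s, rfl | rfl⟩ := Int.even_or_odd' s
  · exact absurd ⟨s, by linarith⟩ n1
  obtain ⟨t, rfl | rfl⟩ := Int.even_or_odd' t
  · exact absurd ⟨t, by linarith⟩ m1
  rw [← mul_inv_eq_one, ← zpow_sub, ← orderOf_dvd_iff_zpow_eq_one]
  exact ⟨s - t, by linarith⟩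

omit [Finite G] in
theorem beta_sq {E : Subgroup G} {x : G} (hx : x ∉ E) (k : ℕ) (h : x ^ 2 ^ k ∈ E) :
    ∃ i : ℕ, x ^ i ∉ E ∧ x ^ i * x ^ i ∈ E := by
  induction k with
  | zero => exact absurd (by simpa using h) hx
  | succ k ih =>
    by_cases e : x ^ 2 ^ k ∈ E
    · exact ih e
    · exact ⟨_, e, by rwa [pow_succ, pow_mul, pow_two] at h⟩

theorem beta_claim (hG : Hg G) {E T W : Subgroup G} (hE : El E) (h8 : 8 ≤ Nat.card E) (hEW : E ≤ W)
    (hW : Hy W T) (hT : IsSylowIn 2 T (centralizer (E : Set G))) {c g : G} (hc : c ∈ E)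
    (hgT : g ∈ normalizer (T : Set G)) (hgE : g ∈ normalizer (E : Set G)) (hne : g * c * g⁻¹ ≠ c) :
    cj g W = W := by
  by_contra n
  obtain ⟨w, hw, e⟩ := key hG hE hEW hW hT hc hgT hgE
  have hc' := conj_mem_of_mem_normalizer hgE hc
  have c1 : c ≠ 1 := by rintro rfl; simp at hne
  have e' : ∀ y ∈ T, w⁻¹ * (y⁻¹ * w * y⁻¹⁻¹) =
      (if y ∈ W then 1 else c) * (if g⁻¹ * y * g ∈ W then 1 else g * c * g⁻¹) := fun y hy => by
    have m : (if y ∈ W then 1 else c) * (if g⁻¹ * y * g ∈ W then 1 else g * c * g⁻¹) ∈ E :=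
      mul_mem (by split_ifs; exacts [one_mem _, hc]) (by split_ifs; exacts [one_mem _, hc'])
    have := e y hy
    rw [mul_assoc y, mul_inv_eq_iff_eq_mul, mul_assoc, hT.le hw _ m] at this
    rw [inv_inv, mul_assoc, this]; group
  obtain ⟨h, hh, hz⟩ : ∃ h ∈ E, ∀ n : ℤ, w ^ n ∈ E → w ^ n = 1 ∨ w ^ n = h := by
    by_cases k : ∃ m : ℤ, w ^ m ∈ E ∧ w ^ m ≠ 1
    · obtain ⟨m, m1, m2⟩ := k
      exact ⟨_, m1, fun n hn => or_iff_not_imp_left.2 fun n1 => beta_uniq (hE _ hn) (hE _ m1) n1 m2⟩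
    · push Not at k
      exact ⟨1, one_mem _, fun n hn => Or.inl (k n hn)⟩
  obtain ⟨a, ha, a1, ah, y, hy, ey⟩ : ∃ a ∈ E, a ≠ 1 ∧ a ≠ h ∧ ∃ y ∈ T, w⁻¹ * (y⁻¹ * w * y⁻¹⁻¹) = a := by
    by_cases k : c = h
    · obtain ⟨y, y1, y2⟩ := SetLike.not_le_iff_exists.1 fun l : W ≤ cj g W => n (eq_of_le_of_card_ge l (card_cj g W).le).symm
      exact ⟨_, hc', fun k => c1 (by simpa using k), k ▸ hne, y, hW.le y1, by
        rw [e' y (hW.le y1), if_pos y1, if_neg (mt mem_cj.2 y2), one_mul]⟩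
    · obtain ⟨y, y1, y2⟩ := SetLike.not_le_iff_exists.1 fun l : cj g W ≤ W => n (eq_of_le_of_card_ge l (card_cj g W).ge)
      have yT : y ∈ T := mem_normalizer_iff_cj.1 hgT ▸ cj_mono g hW.le y1
      exact ⟨c, hc, c1, k, y, yT, by rw [e' y yT, if_neg y2, if_pos (mem_cj.1 y1), mul_one]⟩
  obtain ⟨V, hV, hV1, hV2⟩ := hE.exists_hy' hh ha a1 ah
  obtain ⟨d, hd, d1, d2, d3⟩ := exists_ne_three (E := V) (by have := hV.card; omega) (a⁻¹ * c)
    (a⁻¹ * (g * c * g⁻¹)) (a⁻¹ * (c * (g * c * g⁻¹)))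
  obtain ⟨φ, p1, p2⟩ := hG.tr_fix hE hV hd (hT.le hw) fun n hn => (hz n hn).elim
    (fun k => k ▸ V.one_mem) fun k => k ▸ hV1
  have ed : w⁻¹ * (φ y⁻¹ * w * (φ y⁻¹)⁻¹) = a * d := by
    rw [← p1.mv a ha hV2, ← ey]
    simp only [map_mul, map_inv, p2]
  obtain ⟨t, ht, et⟩ := img_syl hE (N := centralizer (E : Set G)) (fun n hn k hk => (hn k hk).symm) hT (w := w)
    (fun t ht => by
      rw [← inv_inv t, e' _ (inv_mem ht)]
      exact mul_mem (by split_ifs; exacts [one_mem _, hc]) (by split_ifs; exacts [one_mem _, hc']))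
    (n := φ y⁻¹) (fun k hk => by
      obtain ⟨k', hk', rfl⟩ : ∃ k' ∈ E, φ k' = k := by
        by_cases m : k ∈ V
        · exact ⟨k, hk, p1.fix k m⟩
        · exact ⟨k * d, mul_mem hk (hV.le hd), by
            rw [p1.mv _ (mul_mem hk (hV.le hd)) (hV.mul_notMem m hd), mul_assoc, hE d (hV.le hd), mul_one]⟩
      rw [← map_mul, ← map_mul, hT.le (inv_mem hy) k' hk']) (ed ▸ mul_mem ha (hV.le hd))
  rw [← et, ← inv_inv t, e' _ (inv_mem ht), ← inv_mul_eq_iff_eq_mul, eq_comm] at ed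
  split_ifs at ed
  · exact hV2 (by simpa [ed] using inv_mem hd)
  · exact d2 (by rw [ed, one_mul])
  · exact d1 (by rw [ed, mul_one])
  · exact d3 ed

theorem sy_of_allTv (hG : Hg G) {E : Subgroup G} (hE : Mx E) (h8 : 8 ≤ Nat.card E)
    (hT : AllTv E) : Sy E := by
  intro x k hk hx
  by_contra n
  have hxC : x ∈ centralizer (E : Set G) := fun e he => (hx e he).symm
  obtain ⟨T, hS, xT⟩ := exists_isSylowIn_ge (isPGroup_zpowers_of_pow hk) (zpowers_le.2 hxC)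
  replace xT := zpowers_le.1 xT
  have ET : E ≤ T := hS.le_of_le_normalizer hE.el.isPGroup (fun a ha b hb => hE.el.comm hb ha)
    (centralizer_le_normalizer _)
  have nE : normalizer (T : Set G) ≤ normalizer (E : Set G) := fun g hg => mem_normalizer_of_forall fun e he =>
    beta_mem hE (by rw [conj_mul, hE.el e he, mul_one, mul_inv_cancel]) (hS.le (conj_mem_of_mem_normalizer hg (ET he)))
  have fr : ∀ g ∈ normalizer (E : Set G), ∃ g' ∈ normalizer (T : Set G), ∀ e ∈ E, g' * e * g'⁻¹ = g * e * g⁻¹ :=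
    fun g hg => by
      obtain ⟨m, m1, m2⟩ := hS.frattini' (g := g) (by
        rw [mem_normalizer_iff_cj, cj_centralizer, mem_normalizer_iff_cj.1 hg])
      exact ⟨_, m2, fun e he => by rw [mul_assoc g, ← m1 e he]; group⟩
  have EW : ∀ W, Hy W T → E ≤ W := fun W hW c hc => by
    obtain ⟨i, i1, i2⟩ := beta_sq n k (hk ▸ E.one_mem)
    have yT := pow_mem xT i
    generalize x ^ i = y at i1 i2 yT
    have h1 : y * y ≠ 1 := fun e => i1 (beta_mem hE e (hS.le yT))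
    by_cases c1 : c = 1
    · exact c1 ▸ W.one_mem
    obtain ⟨V, hV, v1, v2⟩ := hE.el.exists_hy' (mul_mem i2 hc) i2 h1 (by simpa using c1)
    obtain ⟨g, hg⟩ := hT V hV _ v1
    obtain ⟨g', g1, g2⟩ := fr g (hg.mem_normalizer hV v1)
    have := hW.sq (conj_mem_of_mem_normalizer g1 yT)
    rwa [conj_mul, g2 _ i2, hg.mv _ i2 v2, ← mul_assoc, hE.el _ i2, one_mul] at this
  obtain ⟨a, ha, a1, -⟩ := exists_ne_three (E := E) (by omega) 1 1 1
  obtain ⟨b, hb, b1, ba, -⟩ := exists_ne_three (E := E) (by omega) 1 a a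
  obtain ⟨V₁, hV₁, v1, v1'⟩ := hE.el.exists_hy' hb ha a1 ba.symm
  obtain ⟨V₂, hV₂, v2, v2'⟩ := hE.el.exists_hy' ha hb b1 ba
  obtain ⟨g₁, t1⟩ := hT V₁ hV₁ b v1
  obtain ⟨g₂, t2⟩ := hT V₂ hV₂ a v2
  obtain ⟨g, gT, hg⟩ := fr (g₁ * g₂) (mul_mem (t1.mem_normalizer hV₁ v1) (t2.mem_normalizer hV₂ v2))
  have hg' : ∀ e ∈ E, g * e * g⁻¹ = g₁ * (g₂ * e * g₂⁻¹) * g₁⁻¹ := fun e he => by rw [hg e he]; group
  have ea : g * a * g⁻¹ = a * b := by rw [hg' a ha, t2.fix a v2, t1.mv a ha v1']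
  have eb : g * b * g⁻¹ = a := by
    rw [hg' b hb, t2.mv b hb v2', t1.mv _ (mul_mem hb ha) (hV₁.mul_notMem' v1' v1), hE.el.comm hb ha, mul_assoc,
      hE.el b hb, mul_one]
  have g3 : g ^ 3 ∈ centralizer ({a} : Set G) := by
    rw [mem_centralizer_singleton_iff, ← mul_inv_eq_iff_eq_mul,
      show g ^ 3 * a * (g ^ 3)⁻¹ = g * (g * (g * a * g⁻¹) * g⁻¹) * g⁻¹ by rw [pow_three]; group, ea, ← conj_mul (a := a), ea,
      eb, hE.el.comm ha hb, mul_assoc b, hE.el a ha, mul_one, eb]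
  have : Fact (Nat.Prime 3) := ⟨by norm_num⟩
  obtain ⟨m, j, m3, hm⟩ := exists_ppart 3 g
  have na : g ^ m ∉ centralizer ({a} : Set G) := fun c => by
    rw [← Nat.div_add_mod m 3, pow_add, pow_mul, mul_mem_cancel_left (pow_mem g3 _)] at c
    have : g ∈ centralizer ({a} : Set G) := by
      obtain e | e : m % 3 = 1 ∨ m % 3 = 2 := by omega
      · rwa [e, pow_one] at c
      · rwa [pow_succ, mul_mem_cancel_left (e ▸ c)] at g3
    rw [mem_centralizer_singleton_iff.1 this, mul_inv_cancel_right, left_eq_mul] at ea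
    exact b1 ea
  have mT := pow_mem gT m
  generalize g ^ m = s at hm na mT
  rw [mem_centralizer_singleton_iff] at na
  obtain ⟨W, hW, KW⟩ := exists_hy_of_lt hS.pgroup (K := T ⊓ centralizer {s}) (lt_of_le_of_ne inf_le_left fun e =>
    na (mem_centralizer_singleton_iff.1 (e.ge (ET ha)).2).symm)
  have sW := mem_normalizer_iff_cj.2 (beta_claim hG hE.el h8 (EW W hW) hW hS ha mT (nE mT)
    (by rwa [Ne, mul_inv_eq_iff_eq_mul]))
  have := Fintype.ofFinite ((T : Set G) \ W : Set G)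
  obtain ⟨y, hy⟩ := Equiv.Perm.exists_fixed_point_of_prime (p := 3) (n := j) (α := ((T : Set G) \ W : Set G)) (by
      rw [← Nat.card_eq_fintype_card, Nat.card_coe_set_eq, Set.ncard_diff hW.le]
      obtain ⟨i, hi⟩ := IsPGroup.iff_card.1 (hS.pgroup.to_le hW.le)
      change ¬ 3 ∣ Nat.card T - Nat.card W
      rw [hW.card, two_mul, Nat.add_sub_cancel, hi]
      exact fun d => absurd (Nat.prime_three.dvd_of_dvd_pow d) (by norm_num))
    (σ := Equiv.Perm.subtypePerm (MulAut.conj s).toEquiv fun y =>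
      and_congr (mem_normalizer_iff.1 mT y).symm (mem_normalizer_iff.1 sW y).symm.not) (by
      refine (Equiv.Perm.subtypePerm_pow _ _ _).trans (Equiv.ext fun y => Subtype.ext ?_)
      change ((MulAut.toPerm G (MulAut.conj s)) ^ 3 ^ j) y = y
      rw [← map_pow, ← map_pow, hm, map_one, map_one]; rfl)
  exact y.2.2 (KW ⟨y.2.1, mem_centralizer_singleton_iff.2
    (mul_inv_eq_iff_eq_mul.1 (congrArg Subtype.val hy)).symm⟩)

end CfsgLib.Hom
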