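import Mathlib
import Cfsg.Agent.Lib.Hom.Defs
import Cfsg.Agent.Lib.Mit.TrPSL

/-! `PSL₂(q)`: homogeneity forces a prime field. -/

set_option autoImplicit false

namespace CfsgLib.Hom
open Subgroup CfsgLib.Tech Matrix
open scoped MatrixGroups
open _root_.Classical

variable {F : Type*} [Field F] [Fintype F]

open CfsgLib.Mit.Tr CfsgLib.Classical

omit [Fintype F] in
theorem od1_conj (h2 : (2 : F) ≠ 0) {y : PSL(2, F)} {d : F} (e : y * U d * y⁻¹ = U 1) (c : F) :
    y * U (d * c) * y⁻¹ = U c := by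
  obtain ⟨s, rfl⟩ := QuotientGroup.mk_surjective y
  have e1 : pm (s * sl2Mk 1 d 0 1 (by simp) * (sl2Mk 1 1 0 1 (by simp) * s)⁻¹) = 1 := by
    rw [mul_inv_eq_iff_eq_mul] at e
    exact mul_inv_eq_one.2 e
  obtain ⟨r, hr⟩ := pm_eq_one_iff.1 e1
  have e2 : s.1 * (sl2Mk 1 d 0 1 (by simp) : SL(2, F)).1 =
      r • ((sl2Mk 1 1 0 1 (by simp) : SL(2, F)).1 * s.1) := by
    have := congrArg (fun A : SL(2, F) => A.1)
      (inv_mul_cancel_right (s * sl2Mk 1 d 0 1 (by simp)) (sl2Mk 1 1 0 1 (by simp) * s))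
    simp only [Matrix.SpecialLinearGroup.coe_mul] at this hr ⊢
    rw [← this, hr, smul_mul_assoc, one_mul]
  have det := s.2
  rw [det_fin_two] at det
  have a00 := congrFun (congrFun e2 0) 0
  have a01 := congrFun (congrFun e2 0) 1
  have a10 := congrFun (congrFun e2 1) 0
  have a11 := congrFun (congrFun e2 1) 1
  simp [sl2Mk_val, Matrix.mul_apply, Fin.sum_univ_two, vecMul, dotProduct] at a00 a01 a10 a11
  have r1 : r = 1 := by
    have : 2 * (r - 1) = 0 := by
      linear_combination -(s.1 1 1) * a00 + (s.1 1 0) * a01 + (s.1 0 1) * a10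
        - (s.1 0 0) * a11 + 2 * (1 - r) * det
    exact sub_eq_zero.1 ((mul_eq_zero.1 this).resolve_left h2)
  subst r1
  refine pm_conj (r := 1) ?_
  ext i j
  have a0 : s.1 1 0 = 0 := by linear_combination -a00
  fin_cases i <;> fin_cases j <;> simp [sl2Mk_val, Matrix.mul_apply, Fin.sum_univ_two, vecMul, dotProduct, a0]
  linear_combination c * a01

theorem psl2_prime (ho : Odd (Fintype.card F)) (h : HgO PSL(2, F)) : (Fintype.card F).Prime := by
  obtain ⟨p, hc, n, hp, hn⟩ := FiniteField.card' F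
  have p2 : p ≠ 2 := by
    rintro rfl
    rw [hn] at ho
    exact Nat.not_odd_iff_even.2 (Nat.even_pow.2 ⟨even_two, n.ne_zero⟩) ho
  have r2 : ringChar F ≠ 2 := by rwa [ringChar.eq F p]
  have h2 : (2 : F) ≠ 0 := Ring.two_ne_zero r2
  by_contra hq
  obtain ⟨l, hl⟩ : ∃ l : F, ∀ k : ℤ, l ≠ k := by
    by_contra hl
    push Not at hl
    have : Fact p.Prime := ⟨hp⟩
    have s : Function.Surjective (ZMod.castHom (dvd_refl p) F) := fun x => by
      obtain ⟨k, rfl⟩ := hl x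
      exact ⟨k, map_intCast _ k⟩
    have := Fintype.card_of_bijective ⟨RingHom.injective _, s⟩
    rw [ZMod.card] at this
    exact hq (this ▸ hp)
  have up : ∀ c : F, U c ^ p = 1 := fun c => by rw [U_pow, CharP.cast_eq_zero, zero_mul, U_zero]
  have zp : ∀ c : F, U c ∈ zpowers (U (1 : F)) → ∃ k : ℤ, c = k := fun c hc => by
    obtain ⟨k, hk⟩ := (mem_powers_iff_mem_zpowers).2 hc
    simp only [U_pow, mul_one] at hk
    refine ⟨k, ?_⟩
    have := U_eq_one_iff.1 (show U (c + -(k : F)) = 1 by rw [U_add, U_neg, hk, mul_inv_cancel])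
    rw [Int.cast_natCast]
    exact add_neg_eq_zero.1 this
  obtain ⟨ν, hν⟩ := FiniteField.exists_nonsquare r2
  have ν0 : ν ≠ 0 := fun e => hν (e ▸ IsSquare.zero)
  have key : ∀ m : F, (∀ k : ℤ, m ≠ k) → ∃ σ : F ≃+* F, σ l = m := fun m hm => by
    obtain ⟨φ, e1, e2⟩ := h.two p hp (hp.odd_of_ne_two p2) (U 1) (U l) (U m) (up _) (up _) (up _) (U_comm _ _)
      (U_comm _ _) (fun k => (zp _ k).elim hl) fun k => (zp _ k).elim hm
    obtain ⟨y, d, σ, -, -, e⟩ := aut_tw (ν := Units.mk0 ν ν0) hν φ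
    have e3 := e (U 1)
    have e4 := e (U l)
    rw [tw_U, map_one, mul_one] at e3
    rw [tw_U, od1_conj h2 (e3.symm.trans e1)] at e4
    refine ⟨σ, ?_⟩
    have := U_eq_one_iff.1 (show U (σ l + -m) = 1 by rw [U_add, U_neg, ← e4, ← e2, mul_inv_cancel])
    exact add_neg_eq_zero.1 this
  obtain ⟨σ, e1⟩ := key (l + 1) fun k e => hl (k - 1) (by push_cast; linear_combination e)
  obtain ⟨σ', e2⟩ := key (-l) fun k e => hl (-k) (by push_cast; linear_combination -e)
  have cyc : IsCyclic (F ≃+* F) := by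
    have : Fact p.Prime := ⟨hp⟩
    let _ := ZMod.algebra F p
    let f : (F ≃ₐ[ZMod p] F) →* (F ≃+* F) := MonoidHom.mk' (fun σ => σ.toRingEquiv) fun _ _ => rfl
    refine isCyclic_of_surjective f fun σ => ?_
    exact ⟨AlgEquiv.ofRingEquiv (f := σ) fun x =>
      RingHom.congr_fun (Subsingleton.elim ((σ : F →+* F).comp (algebraMap (ZMod p) F)) _) x, rfl⟩
  obtain ⟨g, hg⟩ := cyc.exists_zpow_surjective
  obtain ⟨i, rfl⟩ := hg σ
  obtain ⟨j, rfl⟩ := hg σ'
  have e3 : (g ^ i) ((g ^ j) l) = (g ^ j) ((g ^ i) l) :=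
    congrArg (fun τ : F ≃+* F => τ l) (Commute.zpow_zpow_self g i j).eq
  simp only at e1 e2
  rw [e1, e2, map_neg, map_add, e1, e2, map_one] at e3
  exact h2 (by linear_combination -e3)

end CfsgLib.Hom
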