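import Mathlib
import Cfsg.Agent.Lib.Hom.Defs
import Cfsg.Agent.Lib.Mit.TrPSL

/-! `PSL₂(p)` and `SL₂(7)`. -/

set_option autoImplicit false

namespace CfsgLib.Hom
open Subgroup CfsgLib.Tech Matrix
open scoped MatrixGroups
open _root_.Classical

variable {F : Type*} [Field F] [Fintype F]

open CfsgLib.Mit.Tr CfsgLib.Classical

omit [Fintype F] in
theorem od2_pm_eq {s t : SL(2, F)} (h : pm s = pm t) : ∃ r : F, r * r = 1 ∧ s.1 = r • t.1 := by
  obtain ⟨r, hr⟩ := (pm_eq_one_iff (s := s * t⁻¹)).1 (mul_inv_eq_one.2 h)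
  have e : s.1 = r • t.1 := by
    rw [← inv_mul_cancel_right s t, Matrix.SpecialLinearGroup.coe_mul]
    exact (congrArg (· * t.1) hr).trans (by simp)
  have := s.2
  rw [e, det_smul, t.2] at this
  exact ⟨r, by simpa [pow_two] using this, e⟩

theorem od2_aut (hp : (Fintype.card F).Prime) (h2 : Fintype.card F ≠ 2) (φ : PSL(2, F) ≃* PSL(2, F)) :
    ∃ ψ : SL(2, F) →* SL(2, F), ∀ g, φ (pm g) = pm (ψ g) ∧ (ψ g).1.trace = g.1.trace := by
  have : Fact (Fintype.card F).Prime := ⟨hp⟩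
  obtain ⟨ν, hν⟩ := FiniteField.exists_nonsquare (F := F) fun e => by
    have := FiniteField.even_card_of_char_two e
    have := hp.eq_two_or_odd
    omega
  obtain ⟨y, d, σ, -, -, h⟩ := aut_tw (ν := Units.mk0 ν (by rintro rfl; exact hν IsSquare.zero)) hν φ
  have hσ : ∀ a, σ a = a := fun a => by
    obtain ⟨z, rfl⟩ := (ZMod.ringEquivOfPrime F hp rfl).surjective a
    obtain ⟨n, rfl⟩ := ZMod.natCast_zmod_surjective z
    simp
  obtain ⟨Y, rfl⟩ := QuotientGroup.mk_surjective y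
  let θ : SL(2, F) →* SL(2, F) := MonoidHom.mk' (fun g => sl2Mk (g.1 0 0) (d * g.1 0 1) ((d⁻¹ : Fˣ) * g.1 1 0)
    (g.1 1 1) (by
      rw [mul_mul_mul_comm, Units.mul_inv, one_mul, ← det_fin_two, g.2])) fun a b => by
      ext i j
      fin_cases i <;> fin_cases j <;> simp [sl2Mk_val, Matrix.mul_apply, Fin.sum_univ_two] <;> field_simp
  refine ⟨(MulAut.conj Y).toMonoidHom.comp θ, fun g => ⟨?_, ?_⟩⟩
  · have e : g = sl2Mk (g.1 0 0) (g.1 0 1) (g.1 1 0) (g.1 1 1) (by rw [← det_fin_two, g.2]) :=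
      Subtype.ext (eta_fin_two _)
    refine (h _).trans ?_
    rw [e, tw_pm d σ _ (s := θ g) (by simp [θ, sl2Mk_val, hσ]), ← e]
    rfl
  · change ((Y * θ g * Y⁻¹ : SL(2, F)).1).trace = _
    rw [Matrix.SpecialLinearGroup.coe_mul, trace_mul_comm, ← Matrix.SpecialLinearGroup.coe_mul, inv_mul_cancel_left]
    simp [θ, sl2Mk_val, trace_fin_two]

theorem od2_odd (hp : (Fintype.card F).Prime) (h2 : Fintype.card F ≠ 2) (h : HgO PSL(2, F)) {x : SL(2, F)}
    (hx : Odd (orderOf x)) : orderOf x ∣ 3 ∨ orderOf x ∣ Fintype.card F := by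
  have ho : Odd (orderOf (pm x)) := hx.of_dvd_nat (orderOf_map_dvd (QuotientGroup.mk' _) x)
  obtain ⟨φ, hφ⟩ := h.one _ _ ho (Nat.Coprime.orderOf_pow (Nat.coprime_two_right.2 ho)).symm
  obtain ⟨ψ, hψ⟩ := od2_aut hp h2 φ
  obtain ⟨r, r1, e⟩ := od2_pm_eq (s := x ^ 2) (hφ.symm.trans (hψ x).1)
  have t := congrArg Matrix.trace e
  rw [trace_smul, (hψ x).2, pow_two, Matrix.SpecialLinearGroup.coe_mul, sl2_sq_eq, trace_sub, trace_smul,
    trace_one] at t
  simp only [smul_eq_mul, Fintype.card_fin, Nat.cast_ofNat] at t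
  have hc := Nat.coprime_two_right.2 hx
  rcases mul_eq_zero.1 (show (x.1.trace ^ 2 - 1) * (x.1.trace ^ 2 - 4) = 0 by
    linear_combination (x.1.trace ^ 2 - 2 + r * x.1.trace) * t + x.1.trace ^ 2 * r1) with k | k
  · left
    obtain ⟨s, s1, e⟩ := od2_pm_eq (s := x ^ 3) (t := 1) ((pm_pows x).1 (sub_eq_zero.1 k))
    refine hc.dvd_of_dvd_mul_right (orderOf_dvd_of_pow_eq_one (Subtype.ext ?_))
    rw [pow_mul, pow_two, Matrix.SpecialLinearGroup.coe_mul, e]
    simp [smul_smul, s1]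
  · right
    have := charP_of_card_eq_prime (R := F) (p := Fintype.card F) (hp := ⟨hp⟩) rfl
    exact hc.dvd_of_dvd_mul_left (orderOf_dvd_of_pow_eq_one (sl2_pow_eq_one_of_trace_sq _ x (sub_eq_zero.1 k)))

theorem psl2_five_seven (hp : (Fintype.card F).Prime) (h3 : 3 < Fintype.card F)
    (h : HgO PSL(2, F)) : Fintype.card F = 5 ∨ Fintype.card F = 7 := by
  have key : ∀ (g : SL(2, F)) (m : ℕ), orderOf g = 2 * m → Odd m → Nat.Coprime m (Fintype.card F) → m ≤ 3 :=
    fun g m e ho hc => by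
      have e2 : orderOf (g ^ 2) = m := by
        rw [orderOf_pow_of_dvd two_ne_zero ⟨m, e⟩, e, Nat.mul_div_cancel_left _ two_pos]
      rcases od2_odd hp (by omega) h (x := g ^ 2) (e2 ▸ ho) with k | k <;> rw [e2] at k
      · exact Nat.le_of_dvd (by norm_num) k
      · rw [Nat.Coprime.eq_one_of_dvd hc k]; norm_num
  have := hp.eq_two_or_odd
  obtain ⟨g, hg⟩ := sl2_exists_orderOf_eq_add_one (F := F)
  obtain ⟨g', hg'⟩ := sl2_exists_orderOf_eq_sub_one (F := F)
  obtain ⟨n, e | e⟩ : ∃ n, Fintype.card F = 4 * n + 1 ∨ Fintype.card F = 4 * n + 3 :=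
    ⟨Fintype.card F / 4, by omega⟩
  · have := key g (2 * n + 1) (by omega) ⟨n, rfl⟩ (Nat.coprime_of_lt_prime (by omega) (by omega) hp).symm
    omega
  · have := key g' (2 * n + 1) (by omega) ⟨n, rfl⟩ (Nat.coprime_of_lt_prime (by omega) (by omega) hp).symm
    omega

theorem not_sl27 (h7 : Fintype.card F = 7) : ¬ Hg SL(2, F) := by
  intro h
  have c7 : (7 : F) = 0 := by simpa [h7] using FiniteField.cast_card_eq_zero F
  let u : SL(2, F) := sl2Mk 1 1 0 1 (by simp)
  let l : SL(2, F) := sl2Mk 1 0 1 1 (by simp)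
  have u7 : u ^ 7 = 1 := Subtype.ext (by
    rw [Matrix.SpecialLinearGroup.coe_pow, sl2Mk_val]
    ext i j
    fin_cases i <;> fin_cases j <;> simp [pow_succ]
    linear_combination c7)
  have l7 : l ^ 7 = 1 := Subtype.ext (by
    rw [Matrix.SpecialLinearGroup.coe_pow, sl2Mk_val]
    ext i j
    fin_cases i <;> fin_cases j <;> simp [pow_succ]
    linear_combination c7)
  have ex : (u * l).1 = !![2, 1; 1, 1] := by
    rw [Matrix.SpecialLinearGroup.coe_mul, sl2Mk_val, sl2Mk_val]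
    simp [one_add_one_eq_two]
  have x8 : (u * l) ^ 8 = 1 := Subtype.ext (by
    rw [Matrix.SpecialLinearGroup.coe_pow, ex]
    ext i j
    fin_cases i <;> fin_cases j <;> simp [pow_succ]
    · linear_combination 228 * c7
    · linear_combination 141 * c7
    · linear_combination 141 * c7
    · linear_combination 87 * c7)
  obtain ⟨φ, hφ⟩ := h.ord (Nat.Coprime.orderOf_pow (y := u * l) (m := 5)
    (Nat.Coprime.coprime_dvd_left (orderOf_dvd_of_pow_eq_one x8) (by norm_num))).symm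
  obtain ⟨ψ, hψ⟩ := od2_aut (by rw [h7]; norm_num) (by omega) (QuotientGroup.congr _ _ φ
    (characteristic_iff_map_eq.1 inferInstance φ))
  have e : ∀ g : SL(2, F), g ^ 7 = 1 → φ g = ψ g := fun g hg => by
    obtain ⟨r, r1, e⟩ := od2_pm_eq (s := φ g) (hψ g).1
    have k : ((φ g) ^ 7).1 = r ^ 7 • ((ψ g) ^ 7).1 := by
      rw [Matrix.SpecialLinearGroup.coe_pow, Matrix.SpecialLinearGroup.coe_pow, e, smul_pow]
    rw [← map_pow, ← map_pow, hg, map_one, map_one] at k
    have := congrFun (congrFun k 0) 0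
    obtain rfl : r = 1 := by
      simp at this
      linear_combination -this - (r ^ 5 + r ^ 3 + r) * r1
    exact Subtype.ext (by simpa using e)
  have t := (hψ (u * l)).2
  rw [map_mul, ← e u u7, ← e l l7, ← map_mul, hφ, Matrix.SpecialLinearGroup.coe_pow, ex] at t
  simp [pow_succ, trace_fin_two] at t
  exact one_ne_zero (α := F) (by linear_combination t - 17 * c7)

end CfsgLib.Hom
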