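import Mathlib
import Cfsg.Agent.Lib.Hom.Defs
import Cfsg.Agent.Lib.SEMod.U3

/-! `PSU₃(q)` is not homogeneous. -/

set_option autoImplicit false

namespace CfsgLib.Hom
open Subgroup CfsgLib.Tech Matrix
open scoped MatrixGroups
open _root_.Classical

variable {F : Type*} [Field F] [Fintype F]

open CfsgLib.Unitary CfsgLib.LS CfsgLib.Pres.SU3 CfsgLib.SEMod SemidirectProduct

theorem od4_pow {q : ℕ} [Fact (Fintype.card F = q ^ 2)] (u : UT F q) (n : ℕ) :
    (u ^ n).X = n * u.X ∧ 2 * (u ^ n).Y = n * (2 * u.Y + (n - 1) * (u.X * u.X ^ q)) := by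
  induction n with
  | zero => simp
  | succ n ih =>
    rw [pow_succ, UT.mul_X, UT.mul_Y, ih.1]
    push_cast
    exact ⟨by ring, by linear_combination ih.2⟩

theorem od4_eq {q p k : ℕ} [Fact (Fintype.card F = q ^ 2)] (hk : 0 < k) (hq : q = p ^ k) {a b : GJ F q}
    (ha : a ^ p = 1) (hb : b ^ p = 1) (h : piU a = piU b) : a = b := by
  have h1 : piU (a⁻¹ * b) = 1 := by rw [map_mul, map_inv, h, inv_mul_cancel]
  have h2 : Commute a (a⁻¹ * b) := (Classical.choice (exists_equiv_SU (F := F) (q := q))).injective (by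
    rw [map_mul, map_mul _ _ a]
    exact mem_center_iff.1 ((QuotientGroup.eq_one_iff _).1 h1) _)
  have h3 := h2.mul_pow p
  rw [mul_inv_cancel_left, ha, hb, one_mul] at h3
  have h4 := pow_eq_one_of_piU h1
  have h5 : (a⁻¹ * b) ^ q = 1 := orderOf_dvd_iff_pow_eq_one.1
    ((orderOf_dvd_of_pow_eq_one h3.symm).trans ((dvd_pow_self p hk.ne').trans hq.symm.dvd))
  rw [pow_succ, h5, one_mul] at h4
  exact inv_mul_eq_one.1 h4

omit [Fintype F] in
theorem od4_diag {M : Matrix (Fin 3) (Fin 3) F} {d : Fin 3 → F} (hd : Function.Injective d)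
    (h : M * diagonal d = diagonal d * M) : M.IsDiag := fun i j hij => by
  have := congrFun (congrFun h i) j
  rw [mul_diagonal, diagonal_mul, mul_comm] at this
  exact (mul_eq_mul_right_iff.1 this).resolve_left fun e => hij (hd e).symm

theorem not_psu3 {q : ℕ} (hF : Fintype.card F = q ^ 2) (ho : Odd q) : ¬ HgO (Cfsg.PSU 3 F q) := by
  intro h
  obtain ⟨p, k, hp, _, hk, hq⟩ := exists_char hF
  have : Fact (Fintype.card F = q ^ 2) := ⟨hF⟩
  have : Fact p.Prime := ⟨hp⟩
  have op : Odd p := ho.of_dvd_nat (hq ▸ dvd_pow_self p hk.ne')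
  have h2 : (2 : F) ≠ 0 := fun e => by
    have := (CharP.cast_eq_zero_iff F p 2).1 (by exact_mod_cast e)
    exact absurd ((Nat.prime_dvd_prime_iff_eq hp Nat.prime_two).1 this ▸ op) (by decide)
  have up : ∀ u : UT F q, u ^ p = 1 := fun u => UT.eq_one_of_Y (by
    have := (od4_pow u p).2
    rwa [CharP.cast_eq_zero, zero_mul, mul_eq_zero_iff_left h2] at this)
  obtain ⟨u, hu⟩ := UT.exists_X (q := q) (1 : F)
  have t1 : psiU u ≠ 1 := fun e => by
    rw [(map_eq_one_iff _ psiU_injective).1 e, UT.one_X] at hu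
    exact zero_ne_one hu
  have tp : psiU u ^ p = 1 := by rw [← map_pow, up, map_one]
  obtain ⟨P, hP⟩ := (isPGroup_zpowers_of_pow (k := 1) (by rwa [pow_one])).exists_le_sylow
  have : Nontrivial P := ⟨⟨_, hP (mem_zpowers _)⟩, 1, fun e => t1 (congrArg Subtype.val e)⟩
  have := P.2.center_nontrivial
  obtain ⟨z, hz⟩ := exists_prime_orderOf_dvd_card' (G := center P) p
    ((P.2.to_subgroup _).card_eq_or_dvd.resolve_left Finite.one_lt_card.ne')
  rw [← orderOf_coe, ← orderOf_coe] at hz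
  obtain ⟨φ, hφ⟩ := h.one _ _ (by rwa [hz]) (hz.trans (orderOf_eq_prime tp t1).symm)
  obtain ⟨x, c, hc, -, e⟩ := exists_cz_of_central hq (P.mapSurjective (f := φ.toMonoidHom) φ.surjective)
    (t := psiU u) ⟨_, z.1.2, hφ⟩ t1 (by
      rintro _ ⟨y, hy, rfl⟩
      rw [← hφ]
      exact (map_mul φ _ _).symm.trans ((congrArg φ (congrArg Subtype.val (mem_center_iff.1 z.2 ⟨y, hy⟩))).trans
        (map_mul φ _ _)))
  obtain ⟨X, rfl⟩ := piU_surjective x
  have e' := od4_eq hk hq (a := phi (inl u)) (b := X * phi (inl (cz c hc)) * X⁻¹)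
    (by rw [← map_pow, ← map_pow, up, map_one, map_one])
    (by rw [conj_pow, ← map_pow, ← map_pow, up, map_one, map_one, mul_one, mul_inv_cancel])
    (by rw [map_mul, map_mul, map_inv]; exact e)
  have k1 : smat (phi (inl (cz c hc))) * smat (phi (inl (cz c hc))) + 1 =
      smat (phi (inl (cz c hc))) + smat (phi (inl (cz c hc))) := by
    rw [smat_inl]
    ext i j
    fin_cases i <;> fin_cases j <;> simp [cz, q_ne_zero hF]
  have k2 := congrArg (fun M => smat X * M * smat X⁻¹) k1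
  simp only [mul_add, add_mul, mul_one, ← SUJ.mat_mul, mul_inv_cancel, smat_one] at k2
  rw [← conj_mul, ← e', SUJ.mat_mul, smat_inl] at k2
  have := congrFun (congrFun k2 0) 2
  simp [hu] at this

theorem not_psu34 (hF : Fintype.card F = 16) : ¬ HgO (Cfsg.PSU 3 F 4) := by
  intro h
  replace hF : Fintype.card F = 4 ^ 2 := hF
  have h2 : (2 : F) = 0 := by
    have := natCast_q hF
    exact pow_eq_zero_iff two_ne_zero |>.1 (by push_cast at this; linear_combination this)
  obtain ⟨a, a1, a5⟩ := exists_norm_one_ne_one hF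
  have : Fact (Nat.Prime 5) := ⟨by norm_num⟩
  have hc : center (Cfsg.SU 3 F 4) = ⊥ := card_eq_one.1 (card_center_SU hF (by norm_num))
  replace h := h.of_equiv ((QuotientGroup.quotientMulEquivOfEq hc).trans QuotientGroup.quotientBot)
  have mk : ∀ i j k : ℕ, i + j + k = 5 → ∃ g : Cfsg.SU 3 F 4, g.1.1 = diagonal ![a ^ i, a ^ j, a ^ k] ∧ g ^ 5 = 1 :=
    fun i j k e => by
      have pw : ∀ n : ℕ, (a ^ n) ^ 5 = 1 := fun n => by rw [← pow_mul, mul_comm, pow_mul, a5, one_pow]
      refine ⟨mkSU (diagonal ![a ^ i, a ^ j, a ^ k]) (by simp [Fin.prod_univ_three, ← pow_add, e, a5]) ((pres_iff hF _).2 ?_), rfl,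
        Subtype.ext (Subtype.ext ?_)⟩
      · rw [diagonal_transpose, diagonal_map (map_zero _), diagonal_mul_diagonal, diagonal_eq_one]
        ext l
        fin_cases l <;> simp [conj_apply, ← pow_succ', pw]
      · change (diagonal ![a ^ i, a ^ j, a ^ k]) ^ 5 = 1
        rw [diagonal_pow, diagonal_eq_one]
        ext l
        fin_cases l <;> simp [pw]
  obtain ⟨d₁, e1, p1⟩ := mk 1 1 3 rfl
  obtain ⟨d₂, e2, p2⟩ := mk 0 1 4 rfl
  have ne : ∀ {g : Cfsg.SU 3 F 4} {x y : F}, g.1.1 = diagonal ![x, a ^ 1, y] → g ≠ 1 := by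
    rintro _ x y e rfl
    exact a1 (by simpa using (congrFun (congrFun e 1) 1).symm)
  obtain ⟨φ, hφ⟩ := h.one d₁ d₂ (by rw [orderOf_eq_prime p1 (ne e1)]; decide)
    ((orderOf_eq_prime p1 (ne e1)).trans (orderOf_eq_prime p2 (ne e2)).symm)
  have inj : Function.Injective ![a ^ 0, a ^ 1, a ^ 4] := fun i j e => by
    have o := pow_injOn_Iio_orderOf (x := a)
    rw [orderOf_eq_prime a5 a1] at o
    fin_cases i <;> fin_cases j <;> first | rfl | exact absurd (o (by simp) (by simp) e) (by decide)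
  have dg : ∀ g : Cfsg.SU 3 F 4, g * d₂ = d₂ * g → g.1.1.IsDiag := fun g e =>
    od4_diag inj (e2 ▸ congrArg (fun x : Cfsg.SU 3 F 4 => x.1.1) e)
  have dg' : ∀ g : Cfsg.SU 3 F 4, g.1.1 * d₁.1.1 = d₁.1.1 * g.1.1 → (φ g).1.1.IsDiag := fun g e =>
    dg _ (by rw [← hφ, ← map_mul, ← map_mul, show g * d₁ = d₁ * g from Subtype.ext (Subtype.ext e)])
  let s : Cfsg.SU 3 F 4 := mkSU !![0, 1, 0; 1, 0, 0; 0, 0, 1] (by simp [det_fin_three]; linear_combination -h2)
    ((pres_iff hF _).2 (by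
      ext i j
      fin_cases i <;> fin_cases j <;> simp [Matrix.mul_apply, Fin.sum_univ_three]))
  have k1 := dg' s (by
    rw [e1, coe_mkSU]
    ext i j
    fin_cases i <;> fin_cases j <;> simp)
  have k2 := dg' d₂ (by rw [e1, e2, diagonal_mul_diagonal, diagonal_mul_diagonal]; simp only [mul_comm])
  have := dg s (φ.injective (by
    rw [map_mul, map_mul]
    refine Subtype.ext (Subtype.ext ?_)
    change (φ s).1.1 * (φ d₂).1.1 = (φ d₂).1.1 * (φ s).1.1
    rw [← k1.diagonal_diag, ← k2.diagonal_diag, diagonal_mul_diagonal, diagonal_mul_diagonal]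
    simp only [mul_comm])) (show (0 : Fin 3) ≠ 1 by decide)
  exact one_ne_zero (α := F) this

end CfsgLib.Hom
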