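import Mathlib
import Cfsg.Agent.Lib.Hom.Defs
import Cfsg.Agent.Lib.W2.Tools

/-! Homogeneous groups: `N(E) ≠ C(E)`. -/

set_option autoImplicit false

namespace CfsgLib.Hom
open Subgroup CfsgLib.Tech
open _root_.Classical

variable {G : Type*} [Group G] [Finite G]

/-- an element of order at most two centralizing `E` lies in `E` -/
theorem Mx.tv0_mem {E : Subgroup G} (hE : Mx E) {u : G} (h2 : u * u = 1)
    (hc : ∀ a ∈ E, u * a * u⁻¹ = a) : u ∈ E := by
  by_contra hu
  have hn : ∀ w ∈ E, u * w * u⁻¹ ∈ E := fun w hw => by rw [hc w hw]; exact hw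
  have hs : u * u ∈ E := by rw [h2]; exact one_mem _
  have el : El (E ⊔ zpowers u) := fun x hx => by
    rcases (mem_sup_zpowers hn hs).1 hx with h | h
    · exact hE.el x h
    · calc x * x = u * (u⁻¹ * x) * u⁻¹ * (u * u) * (u⁻¹ * x) := by group
        _ = 1 := by rw [hc _ h, h2, mul_one, hE.el _ h]
  have k1 := hE.max _ el
  have k2 := (hy_sup_zpowers hn hs hu).card
  have k3 : 0 < Nat.card E := Nat.card_pos
  omega

theorem exists_noncent [IsSimpleGroup G] (hna : ¬ IsMulCommutative G) {E : Subgroup G} (hE : Mx E)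
    (h2 : E ≠ ⊥) : ∃ g ∈ normalizer (E : Set G), ∃ a ∈ E, g * a * g⁻¹ ≠ a := by
  by_contra hc
  push Not at hc
  obtain ⟨S, hS, hES⟩ := exists_isSylowIn_ge (H := ⊤) hE.el.isPGroup le_top
  have h1 : ∀ u ∈ normalizer (E : Set G), u * u = 1 → u ∈ E := fun u hu u2 => hE.tv0_mem u2 (hc u hu)
  have hSN : S ≤ normalizer (E : Set G) := by
    by_contra hn
    obtain ⟨x, hx, hx', hxn⟩ := exists_mem_normalizer_of_lt (Q := S ⊓ normalizer (E : Set G)) hS.pgroup
      (lt_of_le_of_ne inf_le_left fun e => hn (e.ge.trans inf_le_right))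
    refine hx' ⟨hx, mem_normalizer_of_forall fun a ha => h1 _
      (conj_mem_of_mem_normalizer hxn ⟨hES ha, le_normalizer ha⟩).2 ?_⟩
    rw [conj_mul, hE.el a ha, mul_one, mul_inv_cancel]
  have hC : ∀ a ∈ E, S ≤ W2.Cx a := fun a ha x hx => W2.mem_Cx'.2 (hc x (hSN hx) a ha)
  obtain ⟨⟨z, hz⟩, z1⟩ := ne_bot_iff_exists_ne_one.1 h2
  have z1 : z ≠ 1 := fun e => z1 (Subtype.ext e)
  have hO : PComp.opOf 2 (⊤ : Subgroup G) = ⊥ := by
    refine (PComp.opOf_normal (⊤ : Subgroup G)).eq_bot_or_eq_top.resolve_right fun e => ?_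
    have := PComp.isPGroup_inf_opOf hE.el.isPGroup (⊤ : Subgroup G)
    rw [e, inf_top_eq] at this
    exact h2 this
  have key : (⊤ : Subgroup G) ≤ W2.Cx z := by
    refine W2.le_of_weaklyClosed hS (hES hz) (fun k hk hk' => ?_) (hO ▸ bot_le) inf_le_right
    have m : k * z * k⁻¹ ∈ E := h1 _ (hSN hk') (by rw [conj_mul, hE.el z hz, mul_one, mul_inv_cancel])
    obtain ⟨n, -, hn, e⟩ := W2.exists_normalizer_conj hS hk (hC z hz) (hC _ m)
    rw [← e]
    refine hc n (mem_normalizer_of_forall fun a ha => h1 _ (hSN (conj_mem_of_mem_normalizer hn (hES ha))) ?_) z hz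
    rw [conj_mul, hE.el a ha, mul_one, mul_inv_cancel]
  have hz' : z ∈ center G := mem_center_iff.2 fun g => W2.mem_Cx.1 (key (mem_top g))
  rcases (inferInstance : (center G).Normal).eq_bot_or_eq_top with e | e
  · exact z1 (mem_bot.1 (e ▸ hz'))
  · exact hna ⟨⟨fun a b => mem_center_iff.1 (e ▸ mem_top b) a⟩⟩

end CfsgLib.Hom
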