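import Mathlib
import Cfsg.Agent.Lib.Hom.Defs

/-! Homogeneous groups: all transvections of `E` are induced by `N(E)`. -/

set_option autoImplicit false

namespace CfsgLib.Hom
open Subgroup CfsgLib.Tech
open _root_.Classical

variable {G : Type*} [Group G] [Finite G]

omit [Finite G] in
theorem tv1_mul_iff {W E : Subgroup G} (h : Hy W E) {x y : G} (hx : x ∈ E) (hy : y ∈ E) :
    x * y ∈ W ↔ (x ∈ W ↔ y ∈ W) := by
  by_cases h1 : x ∈ W <;> by_cases h2 : y ∈ W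
  · simp [h1, h2, W.mul_mem h1 h2]
  · simp [h1, h2, h.mul_notMem' h2 h1]
  · simp [h1, h2, h.mul_notMem h1 h2]
  · simp [h1, h2, h.mul x hx y hy h1 h2]

omit [Finite G] in
theorem tv1_invol {φ : G → G} {E V : Subgroup G} {d : G} (hE : El E) (hV : Hy V E) (hd : d ∈ V)
    (hφ : Tv φ E V d) {x : G} (hx : x ∈ E) : φ (φ x) = x := by
  by_cases h : x ∈ V
  · rw [hφ.fix x h, hφ.fix x h]
  · rw [hφ.mv x hx h, hφ.mv _ (E.mul_mem hx (hV.le hd)) (hV.mul_notMem h hd), mul_assoc,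
      hE d (hV.le hd), mul_one]

omit [Finite G] in
theorem tv1_symm {φ : G ≃* G} {E V : Subgroup G} {d : G} (hE : El E) (hV : Hy V E) (hd : d ∈ V)
    (hφ : Tv φ E V d) {x : G} (hx : x ∈ E) : φ.symm x = φ x := by
  rw [MulEquiv.symm_apply_eq, tv1_invol hE hV hd hφ hx]

omit [Finite G] in
theorem tv1_conj {φ : G ≃* G} {E V W W' : Subgroup G} {d c g : G} (hE : El E) (hV : Hy V E)
    (hd : d ∈ V) (hφ : Tv φ E V d) (hW' : W' ≤ E) (hiff : ∀ x ∈ E, φ x ∈ W ↔ x ∈ W')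
    (hg : Tv (fun x => g * x * g⁻¹) E W c) : Tv (fun x => φ g * x * (φ g)⁻¹) E W' (φ c) := by
  have key : ∀ x ∈ E, φ g * x * (φ g)⁻¹ = φ (g * φ x * g⁻¹) := fun x hx => by
    rw [map_mul, map_mul, map_inv, tv1_invol hE hV hd hφ hx]
  constructor
  · intro x hx
    have := hg.fix _ ((hiff x (hW' hx)).2 hx)
    rw [key x (hW' hx), this, tv1_invol hE hV hd hφ (hW' hx)]
  · intro x hx hx'
    have := hg.mv _ (hφ.mem hV hd hx) (fun h => hx' ((hiff x hx).1 h))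
    rw [key x hx, this, map_mul, tv1_invol hE hV hd hφ hx]

omit [Finite G] in
theorem tv1_tr (hG : Hg G) {E V : Subgroup G} {d : G} (hE : El E) (hV : Hy V E) (hd : d ∈ V) :
    ∃ φ : G ≃* G, Tv φ E V d :=
  hG.tr hV hd (hE d (hV.le hd)) fun _ hy => hE.comm hy (hV.le hd)

theorem tv1_b (hG : Hg G) {E W : Subgroup G} (hE : El E) (hW : Hy W E) {c c' g : G} (hc : c ∈ W)
    (hc' : c' ∈ W) (h1 : c ≠ 1) (h1' : c' ≠ 1) (hg : Tv (fun x => g * x * g⁻¹) E W c) :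
    ∃ g : G, Tv (fun x => g * x * g⁻¹) E W c' := by
  obtain ⟨V, hV, hd, hcV⟩ := hE.exists_hy' (E.mul_mem (hW.le hc) (hW.le hc')) (hW.le hc) h1
    (fun h => h1' (by simpa using h.symm))
  obtain ⟨φ, hφ⟩ := tv1_tr hG hE hV hd
  have := tv1_conj hE hV hd hφ hW.le (W := W) (fun x hx => by
    by_cases h : x ∈ V
    · rw [hφ.fix x h]
    · rw [hφ.mv x hx h]
      exact W.mul_mem_cancel_right (W.mul_mem hc hc')) hg
  rw [hφ.mv c (hW.le hc) hcV, ← mul_assoc, hE c (hW.le hc), one_mul] at this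
  exact ⟨_, this⟩

omit [Finite G] in
theorem tv1_c (hG : Hg G) {E W W' : Subgroup G} (hE : El E) (hW : Hy W E) (hW' : Hy W' E)
    {c g : G} (hc : c ∈ W) (hc' : c ∈ W') (hg : Tv (fun x => g * x * g⁻¹) E W c) :
    ∃ g : G, Tv (fun x => g * x * g⁻¹) E W' c := by
  by_cases e : W = W'
  · exact ⟨g, e ▸ hg⟩
  let V : Subgroup G :=
    { carrier := {x | x ∈ E ∧ (x ∈ W ↔ x ∈ W')}
      one_mem' := ⟨E.one_mem, by simp [W.one_mem, W'.one_mem]⟩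
      mul_mem' := by
        rintro a b ⟨ha, ha'⟩ ⟨hb, hb'⟩
        refine ⟨E.mul_mem ha hb, ?_⟩
        rw [tv1_mul_iff hW ha hb, tv1_mul_iff hW' ha hb, ha', hb']
      inv_mem' := by
        rintro a ⟨ha, ha'⟩
        exact ⟨E.inv_mem ha, by rw [W.inv_mem_iff, W'.inv_mem_iff, ha']⟩ }
  have mV : ∀ x, x ∈ V ↔ x ∈ E ∧ (x ∈ W ↔ x ∈ W') := fun _ => Iff.rfl
  have hV : Hy V E := by
    refine ⟨fun x hx => hx.1, ?_, fun x hx y hy hx' hy' => ?_⟩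
    · by_contra hcon
      push Not at hcon
      apply e
      ext x
      constructor
      · intro h; exact ((mV x).1 (hcon x (hW.le h))).2.1 h
      · intro h; exact ((mV x).1 (hcon x (hW'.le h))).2.2 h
    · rw [mV] at hx' hy' ⊢
      refine ⟨E.mul_mem hx hy, ?_⟩
      rw [tv1_mul_iff hW hx hy, tv1_mul_iff hW' hx hy]
      tauto
  obtain ⟨d, hdE, hd1, hd2⟩ : ∃ d ∈ E, d ∉ W ∧ d ∉ W' := by
    obtain ⟨x, hx, hx'⟩ := hW.ex
    obtain ⟨y, hy, hy'⟩ := hW'.ex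
    by_cases h1 : x ∈ W'
    · by_cases h2 : y ∈ W
      · exact ⟨x * y, E.mul_mem hx hy, hW.mul_notMem hx' h2, hW'.mul_notMem' hy' h1⟩
      · exact ⟨y, hy, h2, hy'⟩
    · exact ⟨x, hx, hx', h1⟩
  have hd : d ∈ V := ⟨hdE, iff_of_false hd1 hd2⟩
  obtain ⟨φ, hφ⟩ := tv1_tr hG hE hV hd
  have := tv1_conj hE hV hd hφ hW'.le (W := W) (fun x hx => by
    by_cases h : x ∈ V
    · rw [hφ.fix x h]; exact h.2
    · rw [hφ.mv x hx h, tv1_mul_iff hW hx hdE]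
      rw [mV] at h
      tauto) hg
  rw [hφ.fix c ⟨hW.le hc, iff_of_true hc hc'⟩] at this
  exact ⟨_, this⟩

theorem tv1_d {E W W' : Subgroup G} (hE : El E) (h8 : 8 ≤ Nat.card E) (hW : Hy W E)
    (hW' : Hy W' E) : ∃ c ∈ W, c ∈ W' ∧ c ≠ 1 := by
  have h4 : 4 ≤ Nat.card W := by have := hW.card; omega
  obtain ⟨x, hx, hx1, -, -⟩ := exists_ne_three h4 1 1 1
  obtain ⟨y, hy, hy1, hyx, -⟩ := exists_ne_three h4 1 x x
  by_cases h1 : x ∈ W'
  · exact ⟨x, hx, h1, hx1⟩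
  by_cases h2 : y ∈ W'
  · exact ⟨y, hy, h2, hy1⟩
  refine ⟨x * y, W.mul_mem hx hy, hW'.mul x (hW.le hx) y (hW.le hy) h1 h2, fun h => hyx ?_⟩
  rw [← hE.inv (hW.le hx)]
  exact eq_inv_of_mul_eq_one_right h

theorem tv1_all (hG : Hg G) {E W₀ : Subgroup G} (hE : El E) (h8 : 8 ≤ Nat.card E) (hW₀ : Hy W₀ E)
    {c₀ g : G} (hc₀ : c₀ ∈ W₀) (h1 : c₀ ≠ 1) (hg : Tv (fun x => g * x * g⁻¹) E W₀ c₀) :
    AllTv E := by
  intro W hW c hc
  by_cases hc1 : c = 1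
  · exact ⟨1, ⟨fun x _ => by simp, fun x _ _ => by simp [hc1]⟩⟩
  obtain ⟨c', h2, h3, h4⟩ := tv1_d hE h8 hW₀ hW
  obtain ⟨g₁, hg₁⟩ := tv1_b hG hE hW₀ hc₀ h2 h1 h4 hg
  obtain ⟨g₂, hg₂⟩ := tv1_c hG hE hW₀ hW h2 h3 hg₁
  exact tv1_b hG hE hW h3 hc h4 hc1 hg₂

/-- a hyperplane containing two given elements -/
theorem tv1_hy_two {E : Subgroup G} (hE : El E) (h8 : 8 ≤ Nat.card E) {a b : G} (ha : a ∈ E)
    (hb : b ∈ E) : ∃ W, Hy W E ∧ a ∈ W ∧ b ∈ W := by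
  have h4 : 4 ≤ Nat.card E := by omega
  obtain ⟨x, hx, hx1, hxa, -⟩ := exists_ne_three h4 1 a a
  obtain ⟨W₁, hW₁, haW, -⟩ := hE.exists_hy' ha hx hx1 hxa
  by_cases hbW : b ∈ W₁
  · exact ⟨W₁, hW₁, haW, hbW⟩
  have h4' : 4 ≤ Nat.card W₁ := by have := hW₁.card; omega
  obtain ⟨y, hy, hy1, hya, -⟩ := exists_ne_three h4' 1 a a
  have hs : ∀ w ∈ zpowers a, b * w * b⁻¹ ∈ zpowers a := fun w hw => by
    rw [hE.comm hb (zpowers_le.2 ha hw), mul_inv_cancel_right]; exact hw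
  have hy' : y ∉ zpowers a ⊔ zpowers b := by
    rw [mem_sup_zpowers hs (by rw [hE b hb]; exact one_mem _)]
    rintro (h | h)
    · exact notMem_zpowers_of_sq (hE a ha) hy1 hya h
    · exact hW₁.mul_notMem (fun h' => hbW (W₁.inv_mem_iff.1 h')) hy (zpowers_le.2 haW h)
  obtain ⟨W, h1, h2, -⟩ := hE.exists_hy (sup_le (zpowers_le.2 ha) (zpowers_le.2 hb)) (hW₁.le hy) hy'
  exact ⟨W, h1, h2 (mem_sup_left (mem_zpowers a)), h2 (mem_sup_right (mem_zpowers b))⟩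

theorem allTv_of_noncent (hG : Hg G) {E : Subgroup G} (hE : El E) (h8 : 8 ≤ Nat.card E) {g a : G}
    (hg : g ∈ normalizer (E : Set G)) (ha : a ∈ E) (hne : g * a * g⁻¹ ≠ a) : AllTv E := by
  have h4 : 4 ≤ Nat.card E := by omega
  have ha1 : a ≠ 1 := by rintro rfl; simp at hne
  have hb : g * a * g⁻¹ ∈ E := conj_mem_of_mem_normalizer hg ha
  have hb1 : g * a * g⁻¹ ≠ 1 := fun h => ha1 (by simpa using h)
  have hginv : ∀ y ∈ E, g⁻¹ * y * g ∈ E := fun y hy => by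
    simpa using conj_mem_of_mem_normalizer (inv_mem hg) hy
  obtain ⟨x, hx, hx1, hxa, -⟩ := exists_ne_three h4 1 a a
  obtain ⟨W₁, hW₁, haW, -⟩ := hE.exists_hy' ha hx hx1 hxa
  obtain ⟨φ, hφ⟩ := tv1_tr hG hE hW₁ haW
  obtain ⟨W, hW, haW', hbW'⟩ := tv1_hy_two hE h8 ha hb
  obtain ⟨n, hn⟩ : ∃ n, n = φ g * g⁻¹ := ⟨_, rfl⟩
  -- `n` acts as `y ↦ y j` with `j ∈ W`
  have hφ' : ∀ y ∈ E, ∃ j ∈ W, φ y = y * j := fun y hy => by
    by_cases h : y ∈ W₁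
    · exact ⟨1, W.one_mem, by rw [hφ.fix y h, mul_one]⟩
    · exact ⟨a, haW', hφ.mv y hy h⟩
  have hact : ∀ y ∈ E, ∃ j ∈ W, n * y * n⁻¹ = y * j := fun y hy => by
    rw [hn, comm_act, tv1_symm hE hW₁ haW hφ (hginv y hy)]
    by_cases h : g⁻¹ * y * g ∈ W₁
    · rw [hφ.fix _ h, show g * (g⁻¹ * y * g) * g⁻¹ = y by group]
      exact hφ' y hy
    · rw [hφ.mv _ (hginv y hy) h,
        show g * (g⁻¹ * y * g * a) * g⁻¹ = y * (g * a * g⁻¹) by group]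
      obtain ⟨j, hj, e⟩ := hφ' _ (E.mul_mem hy hb)
      exact ⟨_, W.mul_mem hbW' hj, by rw [e, mul_assoc]⟩
  have hnn : ∃ y ∈ E, n * y * n⁻¹ ≠ y := by
    by_contra hcon
    push Not at hcon
    obtain ⟨y, hy, hy'⟩ := hW₁.ex
    have hz : g * y * g⁻¹ ∈ E := conj_mem_of_mem_normalizer hg hy
    have h1 := hcon _ hz
    rw [hn, comm_act, show g⁻¹ * (g * y * g⁻¹) * g = y by group, tv1_symm hE hW₁ haW hφ hy,
      hφ.mv y hy hy', show g * (y * a) * g⁻¹ = g * y * g⁻¹ * (g * a * g⁻¹) by group] at h1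
    have h2 := congrArg φ h1
    rw [tv1_invol hE hW₁ haW hφ (E.mul_mem hz hb)] at h2
    by_cases h : g * y * g⁻¹ ∈ W₁
    · rw [hφ.fix _ h] at h2
      exact hb1 (mul_eq_left.1 h2)
    · rw [hφ.mv _ hz h] at h2
      exact hne (mul_left_cancel h2)
  have hnE : n ∈ normalizer (E : Set G) := mem_normalizer_of_forall fun y hy => by
    obtain ⟨j, hj, e⟩ := hact y hy
    rw [e]; exact E.mul_mem hy (hW.le hj)
  have hnW : ∀ y ∈ E, n * y * n⁻¹ ∈ W ↔ y ∈ W := fun y hy => by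
    obtain ⟨j, hj, e⟩ := hact y hy
    rw [e]; exact W.mul_mem_cancel_right hj
  by_cases hfix : ∀ c ∈ W, n * c * n⁻¹ = c
  · obtain ⟨x₀, hx₀, hx₀'⟩ := hW.ex
    obtain ⟨c₀, hc₀, e⟩ := hact x₀ hx₀
    have ht : Tv (fun x => n * x * n⁻¹) E W c₀ := ⟨hfix, fun x hx hx' => by
      have hw := hW.inv_mul hx₀ hx hx₀' hx'
      have h1 := hfix _ hw
      calc n * x * n⁻¹ = n * x₀ * n⁻¹ * (n * (x₀⁻¹ * x) * n⁻¹) := by group
        _ = x₀ * (c₀ * (x₀⁻¹ * x)) := by rw [h1, e, mul_assoc]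
        _ = x * c₀ := by rw [hE.comm (hW.le hc₀) (hW.le hw)]; group⟩
    refine tv1_all hG hE h8 hW hc₀ ?_ ht
    rintro rfl
    obtain ⟨y, hy, hy'⟩ := hnn
    by_cases h : y ∈ W
    · exact hy' (hfix y h)
    · exact hy' (by simpa using ht.mv y hy h)
  · push Not at hfix
    obtain ⟨c, hc, hc'⟩ := hfix
    obtain ⟨ψ, hψ⟩ := tv1_tr hG hE hW hc
    have hnc : n * c * n⁻¹ ∈ W := (hnW c (hW.le hc)).2 hc
    have hninv : ∀ y ∈ E, n⁻¹ * y * n ∈ E := fun y hy => by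
      simpa using conj_mem_of_mem_normalizer (inv_mem hnE) hy
    have hniff : ∀ y ∈ E, n⁻¹ * y * n ∈ W ↔ y ∈ W := fun y hy => by
      rw [← hnW _ (hninv y hy), show n * (n⁻¹ * y * n) * n⁻¹ = y by group]
    have ht : Tv (fun x => ψ n * n⁻¹ * x * (ψ n * n⁻¹)⁻¹) E W (n * c * n⁻¹ * c) := by
      constructor
      · intro y hy
        have hy' := hW.le hy
        rw [comm_act, tv1_symm hE hW hc hψ (hninv y hy'), hψ.fix _ ((hniff y hy').2 hy),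
          show n * (n⁻¹ * y * n) * n⁻¹ = y by group, hψ.fix y hy]
      · intro y hy hy'
        rw [comm_act, tv1_symm hE hW hc hψ (hninv y hy),
          hψ.mv _ (hninv y hy) (fun h => hy' ((hniff y hy).1 h)),
          show n * (n⁻¹ * y * n * c) * n⁻¹ = y * (n * c * n⁻¹) by group,
          hψ.mv _ (E.mul_mem hy (hW.le hnc)) (hW.mul_notMem hy' hnc), mul_assoc]
    refine tv1_all hG hE h8 hW (W.mul_mem hnc hc) (fun h => hc' ?_) ht
    rw [eq_inv_of_mul_eq_one_left h, hE.inv (hW.le hc)]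

end CfsgLib.Hom
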